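import Cfsg.Agent.Sym.MonoF
import Cfsg.Agent.Sym.MonoE1
import Cfsg.Agent.Sym.MonoE2
import Cfsg.Agent.Sym.MonoE3
import Cfsg.Agent.Sym.MonoE4

/-!
# The case of `A₁₀` in characteristic 5
-/

set_option autoImplicit false

namespace Cfsg.Agent.MonoC

open Cfsg.Agent.Comp Equiv

theorem grp5 : grpB 10 25 (5 ^ 1) D5.BT = true := by decide +kernel

/-- Codes of the four generators of the inducing subgroup. -/
noncomputable def c5 (k : ℕ) : ℕ := evC 10 (two D5.ca D5.cb) (D5.spec.getD k ([], 0)).1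

theorem rel5 : mulC 10 (c5 0) (c5 2) = mulC 10 (c5 2) (powC 10 (c5 0) 3) ∧
    mulC 10 (c5 1) (c5 2) = mulC 10 (c5 2) (powC 10 (c5 1) 3) ∧
    mulC 10 (c5 0) (c5 3) = mulC 10 (c5 3) (powC 10 (c5 0) 4) ∧
    mulC 10 (c5 1) (c5 3) = mulC 10 (c5 3) (powC 10 (c5 1) 1) ∧
    mulC 10 (c5 2) (c5 3) = mulC 10 (c5 3) (c5 2) ∧
    powC 10 (c5 2) 4 = idC 10 ∧ powC 10 (c5 3) 2 = idC 10 := by decide +kernel

theorem eig_five {G V : Type*} [Group G] [AddCommGroup V] [DistribMulAction G V]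
    (tor : ∀ v : V, 5 • v = 0) {x y s t : G} (e1 : x * s = s * x ^ 3) (e2 : y * s = s * y ^ 3)
    (e3 : x * t = t * x ^ 4) (e4 : y * t = t * y ^ 1) (e5 : s * t = t * s) (e6 : s ^ 4 = 1)
    (e7 : t ^ 2 = 1) {v : V} (h0 : v ≠ 0) (h1 : x • v = v) (h2 : y • v = v) :
    ∃ c ∈ [1, 2, 3, 4], ∃ d ∈ [1, 4], ∃ v : V, v ≠ 0 ∧ x • v = 1 • v ∧ y • v = 1 • v ∧
      s • v = c • v ∧ t • v = d • v := by
  have hi : ∀ {x s : G} {k : ℕ}, x * s = s * x ^ k → ∀ w : V, x • w = w → x • s • w = s • w :=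
    fun {x s k} e w h => by
      rw [← mul_smul, e, mul_smul, (MulAction.stabilizer G w).pow_mem h k]
  let W : G → ℕ → AddSubgroup V := fun i c =>
    { carrier := {w | i • w = c • w}
      zero_mem' := by simp
      add_mem' := fun {a b} (h1 : _ = _) (h2 : _ = _) => by simp [h1, h2]
      neg_mem' := fun {a} (h1 : _ = _) => by simp [h1] }
  have hW : ∀ i c w, w ∈ W i c ↔ i • w = c • w := fun _ _ _ => Iff.rfl
  obtain ⟨c, hc, v, h3, h0, h4⟩ := exists_eig s (W x 1 ⊓ W y 1) (fun w hw => by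
    simp only [AddSubgroup.mem_inf, hW, one_smul] at hw ⊢
    exact ⟨hi e1 w hw.1, hi e2 w hw.2⟩) (w := v) (by simp [hW, h1, h2]) h0 [1, 2, 3, 4] (by
      have h4 : s • s • s • s • v = v := by
        simpa only [pow_succ', pow_zero, mul_smul, one_smul] using congrArg (· • v) e6
      simp only [List.foldr, smul_sub, smul_comm s (_ : ℕ), h4]
      generalize s • s • s • v = v3
      generalize s • s • v = v2
      generalize s • v = v1
      linear_combination (norm := module) 5 • tor v - 10 • tor v1 + 7 • tor v2 - 2 • tor v3)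
  obtain ⟨d, hd, v, h5, h0, h6⟩ := exists_eig t (W x 1 ⊓ W y 1 ⊓ W s c) (fun w hw => by
    simp only [AddSubgroup.mem_inf, hW, one_smul] at hw ⊢
    refine ⟨⟨hi e3 w hw.1.1, hi e4 w hw.1.2⟩, ?_⟩
    rw [← mul_smul, e5, mul_smul, hw.2, smul_comm]) (w := v) ⟨h3, h4⟩ h0 [1, 4] (by
      have h4 : t • t • v = v := by rw [← mul_smul, ← sq, e7, one_smul]
      simp only [List.foldr, smul_sub, smul_comm t (_ : ℕ), h4]
      generalize t • v = v1
      linear_combination (norm := module) tor v - tor v1)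
  exact ⟨c, hc, d, hd, v, h0, h5.1.1, h5.1.2, h5.2, h6⟩

theorem mod_five {V : Type*} [AddCommGroup V] [DistribMulAction (alternatingGroup (Fin 10)) V]
    [Finite V] [Nontrivial V] (tor : ∀ v : V, 5 • v = 0)
    (hV : Free (alternatingGroup (Fin 10)) V) : False := by
  obtain ⟨a, ha⟩ : ∃ a : alternatingGroup (Fin 10), Rep D5.ca a :=
    ⟨⟨c[0, 1, 2], Perm.mem_alternatingGroup.2 (by decide +kernel)⟩, by
      unfold Rep; decide +kernel⟩
  obtain ⟨b, hb⟩ : ∃ b : alternatingGroup (Fin 10), Rep D5.cb b :=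
    ⟨⟨c[1, 2, 3, 4, 5, 6, 7, 8, 9], Perm.mem_alternatingGroup.2 (by decide +kernel)⟩, by
      unfold Rep; decide +kernel⟩
  obtain ⟨v, h0, hv⟩ := exists_fix (by norm_num) Nat.prime_five ha hb D5.tab (by norm_num)
    (by norm_num) grp5 tor
  have hn : 10 ≤ 16 := by norm_num
  have r : ∀ k, Rep (c5 k) (evW (two a b) (D5.spec.getD k ([], 0)).1) :=
    fun k => rep_evC hn (rep_two ha hb) _
  obtain ⟨e1, e2, e3, e4, e5, e6, e7⟩ := rel5
  generalize c5 = cc at r e1 e2 e3 e4 e5 e6 e7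
  have h1 := hv 1 (by norm_num)
  have h2 := hv 5 (by norm_num)
  simp only [D5.spec, bel, Nat.reduceMod, Nat.reduceDiv, pow_zero, pow_one, one_mul,
    mul_one] at h1 h2
  obtain ⟨c, hc, d, hd, v, h0, h3, h4, h5, h6⟩ := eig_five tor
    (((r 0).mul (r 2)).inj (e1 ▸ (r 2).mul ((r 0).pow hn 3)))
    (((r 1).mul (r 2)).inj (e2 ▸ (r 2).mul ((r 1).pow hn 3)))
    (((r 0).mul (r 3)).inj (e3 ▸ (r 3).mul ((r 0).pow hn 4)))
    (((r 1).mul (r 3)).inj (e4 ▸ (r 3).mul ((r 1).pow hn 1)))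
    (((r 2).mul (r 3)).inj (e5 ▸ (r 3).mul (r 2))) (((r 2).pow hn 4).inj (e6 ▸ rep_id hn))
    (((r 3).pow hn 2).inj (e7 ▸ rep_id hn)) h0 h1 h2
  have h7 : List.Forall₂ (fun s c => evW (two a b) s.1 • v = c • v) D5.spec [1, 1, c, d] :=
    .cons h3 (.cons h4 (.cons h5 (.cons h6 .nil)))
  have h8 := fun {S L} h => h0 (eq_zero (S := S) (L := L) hn (by norm_num) (by norm_num)
    (by norm_num) ha hb D5.tab h tor hV h7)
  simp only [List.mem_cons, List.not_mem_nil, or_false] at hc hd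
  rcases hc with rfl | rfl | rfl | rfl <;> rcases hd with rfl | rfl
  exacts [h8 D5.cert11, h8 D5.cert14, h8 D5.cert21, h8 D5.cert24, h8 D5.cert31, h8 D5.cert34,
    h8 D5.cert41, h8 D5.cert44]

end Cfsg.Agent.MonoC
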