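import Cfsg.Agent.Solv.Coprime2

/-!
# Groups in which noncentral `p`-elements have solvable centralizers
-/

set_option autoImplicit false

namespace Cfsg.Agent.SolvC

open Subgroup Function Group

universe u

variable {p : ℕ} {G H A : Type*} [Group G] [Group H] [Group A]

/-- Noncentral `p`-elements have solvable centralizers. -/
def SC (p : ℕ) (H : Type*) [Group H] : Prop :=
  ∀ x : H, x ∉ center H → (∃ k, x ^ p ^ k = 1) → Group.IsSolvable (centralizer ({x} : Set H))

theorem eq_one [Group.IsSolvable G] {x z : G} (h2 : x ^ 2 = 1) (h3 : z ^ 3 = 1)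
    (h : (x * z) ^ 35 = 1) : x = 1 := by
  have h1 : ∀ n, x ∈ derivedSeries G n ∧ z ∈ derivedSeries G n := fun n => by
    induction n with
    | zero => exact ⟨trivial, trivial⟩
    | succ n ih =>
      rw [derivedSeries_succ, ← map_subtype_commutator, ← Abelianization.ker_of]
      set D := derivedSeries G n
      have e2 : Abelianization.of (⟨x, ih.1⟩ : D) ^ 2 = 1 := by
        rw [← map_pow, show (⟨x, ih.1⟩ : D) ^ 2 = 1 from Subtype.ext h2, map_one]
      have e3 : Abelianization.of (⟨z, ih.2⟩ : D) ^ 3 = 1 := by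
        rw [← map_pow, show (⟨z, ih.2⟩ : D) ^ 3 = 1 from Subtype.ext h3, map_one]
      have e : Abelianization.of (⟨x, ih.1⟩ : D) ^ 35 * Abelianization.of (⟨z, ih.2⟩ : D) ^ 35 = 1 := by
        rw [← mul_pow, ← map_mul, ← map_pow,
          show (⟨x, ih.1⟩ * ⟨z, ih.2⟩ : D) ^ 35 = 1 from Subtype.ext h, map_one]
      rw [pow_eq_pow_mod _ e2, pow_eq_pow_mod _ e3] at e
      have e4 := congrArg (· ^ 3) e
      have e5 := congrArg (· ^ 2) e
      simp only [mul_pow, ← pow_mul, one_pow] at e4 e5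
      rw [pow_eq_pow_mod _ e2, pow_eq_pow_mod _ e3] at e4 e5
      norm_num at e4 e5
      exact ⟨⟨⟨x, ih.1⟩, e4, rfl⟩, ⟨⟨z, ih.2⟩, e5, rfl⟩⟩
  by_contra h0
  exact not_isSolvable_of_mem_derivedSeries h0 (fun n => (h1 n).1) ‹_›

theorem SC.of_inj (h : SC p G) (f : H →* G) (hf : Injective f) : SC p H := by
  rintro x hx ⟨k, hk⟩
  have := h (f x) (fun h => hx (mem_center_iff.2 fun g => hf (by
    simpa using mem_center_iff.1 h (f g)))) ⟨k, by rw [← map_pow, hk, map_one]⟩
  refine isSolvable_of_isSolvable_injective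
    (f := (f.comp (Subgroup.subtype _)).codRestrict (centralizer {f x}) fun y => ?_) fun a b e => ?_
  · simpa [mem_centralizer_singleton_iff] using congrArg f (mem_centralizer_singleton_iff.1 y.2)
  · exact Subtype.ext (hf (congrArg Subtype.val e))

theorem not_mem_center {f : G →* H} (hf : Surjective f) {x : G} (h : f x ∉ center H) :
    x ∉ center G := fun h' => h (mem_center_iff.2 fun g => by
  obtain ⟨g, rfl⟩ := hf g
  rw [← map_mul, mem_center_iff.1 h' g, map_mul])

theorem SC.quot_coprime [Finite G] [hp : Fact p.Prime] (h : SC p G) (N : Subgroup G) [N.Normal]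
    (hN : (Nat.card N).Coprime p) : SC p (G ⧸ N) := by
  rintro y hy ⟨k, hk⟩
  obtain ⟨x, rfl, hx⟩ : ∃ x : G, QuotientGroup.mk' N x = y ∧ x ^ p ^ k = 1 := by
    obtain ⟨m, hm⟩ := exists_pow_eq_self_of_coprime (x := y)
      ((hN.pow_right k).coprime_dvd_right (orderOf_dvd_of_pow_eq_one hk))
    obtain ⟨x, rfl⟩ := QuotientGroup.mk'_surjective N y
    refine ⟨(x ^ Nat.card N) ^ m, by simpa using hm, ?_⟩
    have h1 : x ^ p ^ k ∈ N := (QuotientGroup.eq_one_iff _).1 hk
    have h2 : (x ^ p ^ k) ^ Nat.card N = 1 := congrArg Subtype.val (pow_card_eq_one' (x := (⟨_, h1⟩ : N)))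
    rw [← pow_mul, ← pow_mul, mul_comm, mul_comm m, mul_assoc, mul_comm m, pow_mul, pow_mul, h2,
      one_pow]
  have := h x (not_mem_center (QuotientGroup.mk'_surjective N) hy) ⟨k, hx⟩
  have := isSolvable_of_surjective
    ((QuotientGroup.mk' N).subgroupMap_surjective (centralizer {x}))
  refine isSolvable_of_isSolvable_injective (inclusion_injective (K := (centralizer {x}).map
    (QuotientGroup.mk' N)) fun c hc => ?_)
  obtain ⟨c, rfl⟩ := QuotientGroup.mk'_surjective N c
  have hP : IsPGroup p (zpowers x) := by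
    obtain ⟨j, -, hj⟩ := (Nat.dvd_prime_pow hp.out).1 (orderOf_dvd_of_pow_eq_one hx)
    exact .of_card (by rw [Nat.card_zpowers, hj])
  obtain ⟨n, hn, h1⟩ := Solv.coprime_fixed_coset' (zpowers x) N le_normalizer_of_normal
    (Solv.coprime_card_of_isPGroup hP hN).symm (.inl (Solv.isSolvable_of_isPGroup hP)) c (by
      rintro _ ⟨j, rfl⟩
      have h1 : Commute (QuotientGroup.mk' N c) (QuotientGroup.mk' N x) :=
        mem_centralizer_singleton_iff.1 hc
      rw [← QuotientGroup.eq_one_iff]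
      change QuotientGroup.mk' N _ = 1
      simp only [map_mul, map_inv, map_zpow, ← (h1.zpow_right j).eq]
      group)
  refine ⟨c * n, mem_centralizer_singleton_iff.2 (h1 x (mem_zpowers x)).symm, ?_⟩
  simp [(QuotientGroup.eq_one_iff n).2 hn]

theorem SC.quot_center (h : SC p G) (hZ : IsPGroup p (center G)) : SC p (G ⧸ center G) := by
  rintro y hy ⟨k, hk⟩
  obtain ⟨x, rfl⟩ := QuotientGroup.mk'_surjective _ y
  obtain ⟨j, hj⟩ := hZ ⟨x ^ p ^ k, (QuotientGroup.eq_one_iff _).1 hk⟩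
  have := h x (not_mem_center (QuotientGroup.mk'_surjective _) hy)
    ⟨k + j, by rw [pow_add, pow_mul]; exact congrArg Subtype.val hj⟩
  set C := centralizer {QuotientGroup.mk' (center G) x}
  have h1 : ∀ c : C.comap (QuotientGroup.mk' (center G)), c * x * (c : G)⁻¹ * x⁻¹ ∈ center G :=
    fun c => by
      rw [← QuotientGroup.eq_one_iff]
      change QuotientGroup.mk' _ _ = 1
      simp only [map_mul, map_inv, mem_centralizer_singleton_iff.1 c.2]
      group
  let φ : C.comap (QuotientGroup.mk' (center G)) →* center G := .mk' (fun c => ⟨_, h1 c⟩)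
    fun c d => Subtype.ext (by
      have h2 := mem_center_iff.1 (h1 d) (c * x * (c : G)⁻¹ * x⁻¹)
      have h3 := mem_center_iff.1 (h1 d) c
      simp only [coe_mul, MulMemClass.mk_mul_mk]
      rw [h2]
      simp only [← mul_assoc] at h3 ⊢
      rw [← h3]
      group)
  have h2 : centralizer {x} ≤ C.comap (QuotientGroup.mk' (center G)) := fun c hc =>
    mem_centralizer_singleton_iff.2 (by
      rw [← map_mul, mem_centralizer_singleton_iff.1 hc, map_mul])
  have := Solv.isSolvable_of_isMulCommutative (center G)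
  have := isSolvable_of_ker_le_range (inclusion h2) φ fun c hc =>
    ⟨⟨c, mem_centralizer_singleton_iff.2 (by
      rw [← mul_inv_eq_one, mul_inv_rev, ← mul_assoc]; exact congrArg Subtype.val hc)⟩, rfl⟩
  exact isSolvable_of_surjective
    (MonoidHom.subgroupComap_surjective_of_surjective _ C (QuotientGroup.mk'_surjective _))

theorem reduce [hp : Fact p.Prime] (hA : center A = ⊥) (n : ℕ) :
    ∀ (H : Type u) [Group H] [Finite H] (σ : H →* A), Nat.card H = n → Surjective σ → SC p H →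
      ∃ (H : Type u) (_ : Group H) (_ : Finite H) (σ : H →* A),
        Surjective σ ∧ SC p H ∧ IsPGroup p σ.ker ∧ center H = ⊥ := by
  induction n using Nat.strong_induction_on with
  | _ n ih =>
  intro H _ _ σ hn hσ h
  subst hn
  have hq : ∀ (N : Subgroup H) [N.Normal], N ≤ σ.ker → N ≠ ⊥ → SC p (H ⧸ N) → _ :=
    fun N _ h1 h2 h3 => ih _ (by
      have h4 := N.card_mul_index
      have h5 := (one_lt_card_iff_ne_bot N).2 h2
      have h6 := Nat.pos_of_ne_zero N.index_ne_zero_of_finite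
      change N.index < _
      nlinarith) (H ⧸ N) (QuotientGroup.lift N σ h1) rfl (fun a => by
        obtain ⟨g, rfl⟩ := hσ a
        exact ⟨g, rfl⟩) h3
  by_cases hK : IsPGroup p σ.ker
  · by_cases hZ : center H = ⊥
    · exact ⟨H, _, ‹_›, σ, hσ, h, hK, hZ⟩
    have h1 : center H ≤ σ.ker := fun z hz => by
      by_contra h1
      exact not_mem_center hσ (by rwa [hA]) hz
    exact hq _ h1 hZ (h.quot_center (hK.to_le h1))
  obtain ⟨q, hq1, hq2, hq3⟩ : ∃ q : ℕ, q.Prime ∧ q ∣ Nat.card σ.ker ∧ q ≠ p := by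
    by_contra! h1
    exact hK (.of_card (Nat.eq_prime_pow_of_unique_prime_dvd Nat.card_pos.ne' (h1 _)))
  have := Fact.mk hq1
  obtain ⟨Q⟩ : Nonempty (Sylow q σ.ker) := inferInstance
  have h1 := Q.normalizer_sup_eq_top
  by_cases hL : normalizer ((Q : Subgroup σ.ker).map σ.ker.subtype : Set H) = ⊤
  · have := normalizer_eq_top_iff.1 hL
    refine hq ((Q : Subgroup σ.ker).map σ.ker.subtype) (map_subtype_le _) (fun h2 =>
      Q.ne_bot_of_dvd_card hq2 ((map_eq_bot_iff_of_injective _ σ.ker.subtype_injective).1 h2))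
      (h.quot_coprime _ (Solv.coprime_card_of_isPGroup (Q.2.map _)
        ((Nat.coprime_primes hp.out hq1).2 hq3.symm)).symm)
  · refine ih _ (not_le.1 fun h => hL (eq_top_of_le_card _ h)) _ (σ.comp (Subgroup.subtype _)) rfl (fun a => ?_)
      (h.of_inj _ (subtype_injective _))
    obtain ⟨g, rfl⟩ := hσ a
    obtain ⟨l, hl, k, hk, rfl⟩ := mem_sup_of_normal_right.1 (h1 ▸ mem_top g)
    exact ⟨⟨l, hl⟩, by rw [map_mul, show σ k = 1 from hk, mul_one]; rfl⟩

theorem SC.key (h : SC p H) (hZ : center H = ⊥) (σ : H →* A) {v x z : H} (hv : v ≠ 1)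
    (hv' : ∃ k, v ^ p ^ k = 1) (hx : x * v = v * x) (hz : z * v = v * z) (h2 : σ x ^ 2 = 1)
    (h3 : σ z ^ 3 = 1) (h4 : (σ x * σ z) ^ 35 = 1) : σ x = 1 := by
  have := h v (by rwa [hZ]) hv'
  have := isSolvable_of_surjective (σ.subgroupMap_surjective (centralizer {v}))
  exact congrArg Subtype.val (eq_one (G := (centralizer {v}).map σ)
    (x := ⟨_, x, mem_centralizer_singleton_iff.2 hx, rfl⟩)
    (z := ⟨_, z, mem_centralizer_singleton_iff.2 hz, rfl⟩) (Subtype.ext h2) (Subtype.ext h3)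
    (Subtype.ext h4))

theorem SC.coprime [Finite H] [Fact p.Prime] (h : SC p H) (hZ : center H = ⊥) {σ : H →* A}
    (hσ : Surjective σ) (hK : IsPGroup p σ.ker) {L : Subgroup A}
    (hL : (Nat.card σ.ker).Coprime (Nat.card L)) {y : A} (hy : y ≠ 1) (hy' : y ^ p = 1)
    (hc : ∀ l ∈ L, l * y = y * l) {x z : A} (hx : x ∈ L) (hz : z ∈ L) (h2 : x ^ 2 = 1)
    (h3 : z ^ 3 = 1) (h4 : (x * z) ^ 35 = 1) : x = 1 := by
  have h1 : σ.ker ≤ L.comap σ := ker_le_comap _ _
  have h5 : (σ.ker.subgroupOf (L.comap σ)).index = Nat.card L := by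
    rw [← relIndex, relIndex_ker, map_comap_eq_self_of_surjective hσ]
  obtain ⟨M, hM⟩ := exists_right_complement'_of_coprime (N := σ.ker.subgroupOf (L.comap σ))
    (by rwa [h5, Nat.card_congr (subgroupOfEquivOfLe h1).toEquiv])
  have h6 : ∀ l ∈ L, ∃ m ∈ M.map (Subgroup.subtype _), σ m = l := fun l hl => by
    obtain ⟨g, rfl⟩ := hσ l
    obtain ⟨n, hn, m, hm, e⟩ := Solv.exists_mul_of_isComplement' hM ⟨g, hl⟩
    refine ⟨m, ⟨m, hm, rfl⟩, ?_⟩
    rw [show g = n * m from congrArg Subtype.val e, map_mul, show σ n = 1 from hn, one_mul]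
  obtain ⟨k, rfl⟩ := hσ y
  obtain ⟨n, hn, h7⟩ := Solv.coprime_fixed_coset' (M.map (Subgroup.subtype _)) σ.ker
    le_normalizer_of_normal (by
      rw [card_map_of_injective (subtype_injective _), ← hM.symm.index_eq_card, h5]
      exact hL.symm) (.inr (Solv.isSolvable_of_isPGroup hK)) k (by
      rintro _ ⟨a, -, rfl⟩
      simp [MonoidHom.mem_ker, hc _ a.2])
  obtain ⟨x, hx', rfl⟩ := h6 x hx
  obtain ⟨z, hz', rfl⟩ := h6 z hz
  have h8 : σ (k * n) = σ k := by rw [map_mul, show σ n = 1 from hn, mul_one]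
  obtain ⟨j, hj⟩ := hK ⟨(k * n) ^ p, by rw [MonoidHom.mem_ker, map_pow, h8, hy']⟩
  exact h.key hZ σ (fun h => hy (by rw [← h8, h, map_one]))
    ⟨j + 1, by rw [pow_succ', pow_mul]; exact congrArg Subtype.val hj⟩ (h7 x hx') (h7 z hz')
    h2 h3 h4

theorem SC.ker_eq_bot {H : Type u} [Group H] [Finite H] [hp : Fact p.Prime] (h : SC p H)
    (hZ : center H = ⊥) {σ : H →* A} (hσ : Surjective σ) (hK : IsPGroup p σ.ker)
    (hA : ∀ (V : Type u) [AddCommGroup V] [DistribMulAction A V] [Finite V] [Nontrivial V],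
      (∀ v : V, p • v = 0) → (∀ x z : A, x ^ 2 = 1 → z ^ 3 = 1 → (x * z) ^ 35 = 1 → x ≠ 1 →
        ∀ v : V, x • v = v → z • v = v → v = 0) → False) : σ.ker = ⊥ := by
  by_contra h0
  let W : Subgroup H :=
    { carrier := {v | v ∈ σ.ker ⊓ centralizer σ.ker ∧ v ^ p = 1}
      one_mem' := ⟨one_mem _, one_pow _⟩
      mul_mem' := fun {a b} ha hb => ⟨mul_mem ha.1 hb.1, by
        rw [Commute.mul_pow (hb.1.2 a ha.1.1), ha.2, hb.2, one_mul]⟩
      inv_mem' := fun {a} ha => ⟨inv_mem ha.1, by rw [inv_pow, ha.2, inv_one]⟩ }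
  have : W.Normal := ⟨fun a ha g => ⟨Normal.conj_mem inferInstance a ha.1 g, by
    rw [conj_pow, ha.2, mul_one, mul_inv_cancel]⟩⟩
  let : CommGroup W := { mul_comm a b := Subtype.ext (b.2.1.2 a a.2.1.1) }
  have : Nontrivial W := by
    have := (nontrivial_iff_ne_bot _).2 h0
    have := hK.center_nontrivial
    obtain ⟨j, hj, e⟩ := (hK.to_subgroup (center σ.ker)).nontrivial_iff_card.1 this
    obtain ⟨w, hw⟩ := exists_prime_orderOf_dvd_card' (G := center σ.ker) p
      (e ▸ dvd_pow_self p hj.ne')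
    refine ⟨⟨w, ⟨w.1.2, fun k hk => congrArg Subtype.val (mem_center_iff.1 w.2 ⟨k, hk⟩)⟩,
      congrArg (·.1.1) (hw ▸ pow_orderOf_eq_one w)⟩, 1, fun e => hp.out.ne_one ?_⟩
    rw [← hw, orderOf_eq_one_iff]
    exact Subtype.ext (Subtype.ext (congrArg (Subtype.val : W → H) e :))
  let ρ : A →* MulAut W := σ.liftOfSurjective hσ ⟨MulAut.conjNormal, fun k hk =>
    MulEquiv.ext fun w => Subtype.ext (by simp [w.2.1.2 k hk])⟩
  have hρ : ∀ g w, ρ (σ g) w = w → g * w = w * g := fun g w e => by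
    rw [MonoidHom.liftOfRightInverse_comp_apply] at e
    exact mul_inv_eq_iff_eq_mul.1 (congrArg Subtype.val e)
  let : DistribMulAction A (Additive W) :=
    { smul a v := .ofMul (ρ a v.toMul)
      one_smul v := congrArg (fun f : MulAut W => Additive.ofMul (f v.toMul)) ρ.map_one
      mul_smul a b v := congrArg (fun f : MulAut W => Additive.ofMul (f v.toMul)) (ρ.map_mul a b)
      smul_zero a := (ρ a).map_one
      smul_add a := (ρ a).map_mul }
  refine hA (Additive W) (fun v => Subtype.ext v.toMul.2.2) fun x z h2 h3 h4 h5 v h6 h7 => ?_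
  obtain ⟨x, rfl⟩ := hσ x
  obtain ⟨z, rfl⟩ := hσ z
  by_contra h8
  exact h5 (h.key hZ σ (v := v.toMul) (fun e => h8 (Subtype.ext e))
    ⟨1, by rw [pow_one, v.toMul.2.2]⟩ (hρ _ _ h6) (hρ _ _ h7) h2 h3 h4)

end Cfsg.Agent.SolvC
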