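import Cfsg.Agent.Sym.Move
import Cfsg.Agent.Sym.Alt

/-!
# Characters of height one in blocks of symmetric groups
-/

namespace Cfsg.Agent.SymCh

open Finset Function Equiv Cfsg Cfsg.Agent.Char Cfsg.Agent.Block

variable {N : ℕ}

theorem Us_two_ne_zero {p : ℕ} (hp : 0 < p) {γ : Fin N → ℕ} (hγ : Injective γ) {w : ℕ}
    (hw : wt p γ = w + 2) (H : ∀ j, p * 2 ≤ γ j → Injective (update γ j (γ j - p * 2)) →
      Injective (update γ j (γ j - p)))
    (H' : ∃ j, p * 2 ≤ γ j ∧ Injective (update γ j (γ j - p * 2))) :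
    Us (p * 2 ::ₘ Multiset.replicate w p) (alt (core p γ)) γ ≠ 0 := by
  have key : ∀ j, p * 2 ≤ γ j → Injective (update γ j (γ j - p * 2)) → ∃ m : ℕ, 0 < m ∧
      Us (Multiset.replicate w p) (alt (core p γ)) (update γ j (γ j - p * 2)) = m := by
    intro j h1 h2
    have h3 := H j h1 h2
    have h4 : update (update γ j (γ j - p)) j (update γ j (γ j - p) j - p) =
        update γ j (γ j - p * 2) := by
      rw [update_idem, update_self, Nat.sub_sub, mul_two]
    have h5 := ((al_core hp hγ).update_sub hγ (by omega) h3).update_sub h3 (j := j)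
      (by rw [update_self]; omega) (h4 ▸ h2)
    rw [h4] at h5
    rw [Us_replicate]
    refine U_pow_alt_pos hp (wt_core hp hγ) w _ h2 h5 ?_
    have := wt_update_sub hp hγ h1 h2
    omega
  have h1 : ∀ j, ∃ m : ℕ, (if p * 2 ≤ γ j then Us (Multiset.replicate w p) (alt (core p γ))
      (update γ j (γ j - p * 2)) else 0) = m := by
    intro j
    split_ifs with h1
    · by_cases h2 : Injective (update γ j (γ j - p * 2))
      · exact (key j h1 h2).imp fun _ h => h.2
      · exact ⟨0, by rw [Anti_eq_zero (Us_mem _ (alt_mem _)) h2, Nat.cast_zero]⟩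
    · exact ⟨0, by simp⟩
  choose f hf using h1
  rw [Us_cons, U_apply]
  simp only [hf]
  rw [← Nat.cast_sum, Nat.cast_ne_zero]
  intro h2
  obtain ⟨j, h3, h4⟩ := H'
  obtain ⟨m, h5, h6⟩ := key j h3 h4
  have h7 := hf j
  rw [if_pos h3, h6, sum_eq_zero_iff.1 h2 j (mem_univ _), Nat.cast_inj] at h7
  omega

theorem exists_hook {p : ℕ} (hp : p.Prime) {κ : Fin N → ℕ} (hκ : Injective κ) (h0 : wt p κ = 0)
    (a b : ℕ) (hN : p * a + wt 1 κ < N) :
    ∃ γ : Fin N → ℕ, Injective γ ∧ resM p γ = resM p κ ∧ ∑ j, γ j = ∑ j, κ j + p * (a + b + 1) ∧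
      ∀ K, a + b + 2 < K → ∑ k ∈ Ico 1 K, wt (p ^ k) γ = a + b + 1 +
        a.factorial.factorization p + b.factorial.factorization p + (a + b + 1).factorization p := by
  obtain ⟨c, h1, h2⟩ := exists_full hp.pos hκ h0 (i := 0) (L := a)
    (exists_eq_of_lt hκ (by rwa [zero_add]))
  obtain ⟨s, rfl⟩ : ∃ s, c = s + a := ⟨c - a, by omega⟩
  obtain ⟨j, hj⟩ := (h2 s).2 (by omega)
  refine ⟨_, h2.injective_update hκ j (u := s + (a + b + 1)) (by omega), resM_update _ _ ?_, ?_,
    fun K hK => ?_⟩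
  · simp [hj]
  · have := sum_update κ j (0 + p * (s + (a + b + 1)))
    rw [hj, mul_add] at this
    rw [mul_add p s]
    omega
  · rw [h2.sum_wt_update hp hp.pos hκ hj b hK, sum_wt_eq_zero hp hκ h0, zero_add]

theorem exists_rows {p : ℕ} (hp : p.Prime) {κ : Fin N → ℕ} (hκ : Injective κ) (h0 : wt p κ = 0)
    (a b : ℕ) (hN : 1 + wt 1 κ < N) :
    ∃ γ : Fin N → ℕ, Injective γ ∧ resM p γ = resM p κ ∧
      ∑ j, γ j = ∑ j, κ j + p * (a + 1 + (b + 1)) ∧
      (∀ K, a + b + 2 < K → ∑ k ∈ Ico 1 K, wt (p ^ k) γ = a + 1 + (b + 1) +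
        (a + 1).factorial.factorization p + (b + 1).factorial.factorization p) ∧
      (∀ j, p * 2 ≤ γ j → Injective (update γ j (γ j - p * 2)) →
        Injective (update γ j (γ j - p))) ∧
      (1 ≤ a → ∃ j, p * 2 ≤ γ j ∧ Injective (update γ j (γ j - p * 2))) := by
  have hp0 := hp.pos
  obtain ⟨c, -, h1⟩ := exists_full hp0 hκ h0 (i := 0) (L := 0)
    (exists_eq_of_lt hκ (by simp; omega))
  obtain ⟨d, -, h2⟩ := exists_full hp0 hκ h0 (i := 1) (L := 0)
    (exists_eq_of_lt hκ (by simpa using hN))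
  obtain ⟨j, hj⟩ := (h1 c).2 le_rfl
  obtain ⟨k, hk⟩ := (h2 d).2 le_rfl
  have hne : ∀ s t, 0 + p * s ≠ 1 + p * t := fun s t e => by
    have := congrArg (· % p) e
    simp [Nat.mod_eq_of_lt hp.one_lt] at this
  have hjk : j ≠ k := by rintro rfl; exact hne _ _ (hj.symm.trans hk)
  have h3 := h1.injective_update hκ j (u := c + (0 + a + 1)) (by omega)
  set κ' := update κ j (0 + p * (c + (0 + a + 1))) with hκ'
  have h4 : Full p 1 (d + 0) κ' := fun t => by
    rw [add_zero, ← h2 t]
    refine exists_congr fun l => ?_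
    by_cases hl : l = j
    · subst hl
      rw [hκ', update_self, hj]
      exact iff_of_false (hne _ _) (hne _ _)
    · rw [hκ', update_of_ne hl]
  have h5 : κ' k = 1 + p * d := by rw [hκ', update_of_ne hjk.symm, hk]
  have h6 := h4.injective_update h3 k (u := d + (0 + b + 1)) (by omega)
  set γ := update κ' k (1 + p * (d + (0 + b + 1))) with hγ
  have e1 : γ j = 0 + p * (c + (0 + a + 1)) := by rw [hγ, update_of_ne hjk, hκ', update_self]
  have e2 : γ k = 1 + p * (d + (0 + b + 1)) := by rw [hγ, update_self]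
  have e3 : ∀ l, l ≠ j → l ≠ k → γ l = κ l := fun l h h' => by
    rw [hγ, update_of_ne h', hκ', update_of_ne h]
  refine ⟨γ, h6, ?_, ?_, fun K hK => ?_, fun l h7 h8 => ?_, fun ha => ⟨j, ?_, ?_⟩⟩
  · rw [hγ, resM_update _ _ (by simp [h5]), hκ', resM_update _ _ (by simp [hj])]
  · have h7 := sum_update κ j (0 + p * (c + (0 + a + 1)))
    have h8 := sum_update κ' k (1 + p * (d + (0 + b + 1)))
    rw [← hκ', hj] at h7
    rw [← hγ, h5] at h8
    simp only [mul_add, zero_add] at h7 h8 ⊢
    omega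
  · rw [hγ, h4.sum_wt_update hp hp.one_lt h3 h5 b (by omega), hκ',
      Full.sum_wt_update (a := 0) hp hp0 hκ h1 hj a (by omega), sum_wt_eq_zero hp hκ h0,
      factorization_factorial_succ, factorization_factorial_succ]
    simp only [zero_add, Nat.factorial_zero, Nat.factorization_one, Finsupp.coe_zero, Pi.zero_apply]
    omega
  · refine injective_update h6 fun m hm e => ?_
    have h9 : γ l = γ m + p := by omega
    by_cases hmj : m = j
    · rw [hmj, e1, add_assoc, ← mul_add_one] at h9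
      by_cases hlk : l = k
      · exact hne _ _ (h9.symm.trans (hlk ▸ e2))
      · have := (h1 _).1 ⟨l, (e3 l (hmj ▸ hm.symm) hlk).symm.trans h9⟩
        omega
    by_cases hmk : m = k
    · rw [hmk, e2, add_assoc, ← mul_add_one] at h9
      by_cases hlj : l = j
      · exact hne _ _ ((hlj ▸ e1).symm.trans h9)
      · have := (h2 _).1 ⟨l, (e3 l hlj (hmk ▸ hm.symm)).symm.trans h9⟩
        omega
    rw [e3 m hmj hmk] at h9
    obtain ⟨r, hr⟩ := exists_pred_of_wt_zero hp0 hκ h0 (j := m) (r := 1) (by omega)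
    have hrj : r ≠ j := by
      rintro rfl
      rw [hj, add_assoc, ← mul_add] at hr
      have := (h1 _).1 ⟨m, hr.symm⟩
      omega
    have hrk : r ≠ k := by
      rintro rfl
      rw [hk, add_assoc, ← mul_add] at hr
      have := (h2 _).1 ⟨m, hr.symm⟩
      omega
    have h10 := e3 r hrj hrk
    exact ne_of_injective_update h8 (k := r) (by rintro rfl; omega) (by omega)
  · rw [e1, zero_add]
    exact Nat.mul_le_mul_left _ (by omega)
  · have h7 : γ j - p * 2 = 0 + p * (c + a - 1) := by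
      rw [e1, zero_add, zero_add, zero_add, ← Nat.mul_sub]
      congr 1
    rw [h7]
    refine injective_update h6 fun m hm e => ?_
    by_cases hmk : m = k
    · exact hne _ _ (e.symm.trans (hmk ▸ e2))
    · rw [e3 m hm hmk] at e
      have := (h1 _).1 ⟨m, e⟩
      exact hm (hκ (by rw [e, hj, show c + a - 1 = c by omega]))

variable {α : Type*} [Fintype α] [DecidableEq α] {β : Fin N → ℕ} {χ : IrrCharacter (Perm α)}
  {p : ℕ} [hp : Fact p.Prime] {M : Ideal AlgInt} {B : Set (IrrCharacter (Perm α))}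

theorem Lab.exists_height_one (hN : Fintype.card α + 1 < N) (h : Lab β χ) (hM : IsPModular p M)
    (hB : IsPBlock M B) (hχ : χ ∈ B) (hw : p ≤ wt p β) (hw' : p = 2 → 3 ≤ wt p β) :
    ∃ ψ ∈ B, (charDegree (ψ : Perm α → ℂ)).factorization p +
        (p * wt p β).factorial.factorization p = (Fintype.card α).factorial.factorization p + 1 ∧
      (p = 2 → ∃ x, x ∉ alternatingGroup α ∧ (ψ : Perm α → ℂ) x ≠ 0) := by
  have hp0 := hp.out.pos
  have hκ := injective_core hp0 h.1
  have h0 := wt_core hp0 h.1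
  have h1 := sum_core hp0 h.1
  have h2 := sum_eq_d0_add hκ
  have h3 := h.2.1
  have key : ∀ γ : Fin N → ℕ, Injective γ → resM p γ = resM p (core p β) →
      ∑ j, γ j = ∑ j, core p β j + p * wt p β → (∀ K, wt p β + 1 < K →
        ∑ k ∈ Ico 1 K, wt (p ^ k) γ + 1 = wt p β + (wt p β).factorial.factorization p) →
      ∃ ψ ∈ B, Lab γ ψ ∧ (charDegree (ψ : Perm α → ℂ)).factorization p +
        (p * wt p β).factorial.factorization p = (Fintype.card α).factorial.factorization p + 1 := by
    intro γ h4 h5 h6 h7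
    obtain ⟨ψ, hψ⟩ := exists_lab (α := α) h4 (by omega)
    refine ⟨ψ, h.mem_of_resM_eq (by omega) hM hB hχ hψ (h5.trans (resM_core _ _)), hψ, ?_⟩
    obtain ⟨K, h8, h9⟩ := exists_bound γ (wt p β + 1)
    have h10 := hψ.factorization_add hp.out h9
    have h11 := h7 K h8
    rw [Nat.factorization_factorial_mul hp.out]
    omega
  by_cases hc : wt p β % p = p - 1
  · have h4 := hp.out.two_le
    have h5 := Nat.div_add_mod (wt p β) p
    have h6 := Nat.mul_le_mul_left p (Nat.div_pos hw hp0)
    obtain ⟨a, b, h7, h8⟩ := exists_one_carry hp.out (wt p β - 1) (by omega) (by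
      rw [show wt p β - 1 = p - 2 + p * (wt p β / p) by omega, Nat.add_mul_mod_self_left,
        Nat.mod_eq_of_lt (by omega)]
      omega)
    have h9 : a + 1 + (b + 1) + 1 = wt p β := by omega
    obtain ⟨γ, h10, h11, h12, h13⟩ := exists_hook hp.out hκ h0 (a + 1) (b + 1) (by
      have := Nat.mul_le_mul_left p (show a + 1 ≤ wt p β by omega)
      omega)
    obtain ⟨ψ, hψ, h14, h15⟩ := key γ h10 h11 (h9 ▸ h12) fun K hK => by
      rw [h13 K (by omega), h9]
      conv_rhs => rw [← h9, factorization_factorial_succ, h7, h8, ← h7, h9]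
      omega
    refine ⟨ψ, hψ, h15, ?_⟩
    rintro rfl
    refine h14.exists_odd ?_
    rw [h14.wt_eq (by omega) hM hB hψ hχ h, Nat.odd_iff, hc]
  · obtain ⟨a, b, h7, h8, h9⟩ : ∃ a b, a + 1 + (b + 1) = wt p β ∧
        (wt p β).factorial.factorization p = (a + 1).factorial.factorization p +
          (b + 1).factorial.factorization p + 1 ∧ b ≤ a := by
      obtain ⟨a, b, h7, h8⟩ := exists_one_carry hp.out _ hw hc
      rcases le_total a b with h | h
      · exact ⟨b, a, by omega, by omega, h⟩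
      · exact ⟨a, b, h7, h8, h⟩
    obtain ⟨γ, h10, h11, h12, h13, h14, h15⟩ := exists_rows hp.out hκ h0 a b (by omega)
    obtain ⟨ψ, hψ, h16, h17⟩ := key γ h10 h11 (h7 ▸ h12) fun K hK => by
      rw [h13 K (by omega)]
      omega
    refine ⟨ψ, hψ, h17, ?_⟩
    rintro rfl
    have h18 := hw' rfl
    have h19 := h16.wt_eq (by omega) hM hB hψ hχ h
    obtain ⟨x, hx⟩ := exists_parts_eq α (ρ := (2 * 2 ::ₘ Multiset.replicate (a + b) 2) +
        Multiset.replicate (Fintype.card α - 2 * wt 2 β) 1) (fun r hr => by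
      simp only [Multiset.mem_add, Multiset.mem_cons, Multiset.mem_replicate] at hr
      omega) (by simp; omega)
    refine ⟨x, ?_, ?_⟩
    · rw [mem_alt_iff_parts, hx, Nat.even_iff]
      simp only [Multiset.card_add, Multiset.card_cons, Multiset.card_replicate]
      omega
    · rw [Ne, h16.eq_zero_iff, chi, hx, st_add_eq hp0 h10 (fun r hr => by
        simp only [Multiset.mem_cons, Multiset.mem_replicate] at hr
        omega) (by simp; omega)]
      refine mul_ne_zero (st_replicate_ne_zero (injective_core hp0 h10) ?_)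
        (Us_two_ne_zero hp0 h10 (by omega) h14 (h15 (by omega)))
      have := sum_core hp0 h10
      omega

end Cfsg.Agent.SymCh
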