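import Cfsg.Agent.Sym.Alt
import Mathlib.GroupTheory.SemidirectProduct

/-!
# Sylow subgroups of symmetric groups have irreducible characters of degree `p`
-/

namespace Cfsg.Agent.SymCh

open Finset Function Equiv Cfsg Cfsg.Agent.Char Cfsg.Agent.Block MulAction

/-- `G` has an irreducible character of degree `p`. -/
def HasDeg (p : ℕ) (G : Type*) [Group G] : Prop :=
  ∃ φ : IrrCharacter G, charDegree (φ : G → ℂ) = p

theorem HasDeg.of_surjective {p : ℕ} {G H : Type*} [Group G] [Group H] (h : HasDeg p H)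
    (f : G →* H) (hf : Surjective f) : HasDeg p G := by
  obtain ⟨φ, hφ⟩ := h
  exact ⟨⟨_, φ.2.comp_surjective f hf⟩, by rw [← hφ]; simp [charDegree]⟩

variable {p : ℕ} [hp : Fact p.Prime]

theorem hasDeg_of_action {H X : Type*} [Group H] [Finite H] [MulAction H X] [Finite X]
    (hH : IsPGroup p H) (hX : Nat.card X ≤ p ^ 2) {a b : H} {x : X}
    (h : (a * b * a⁻¹ * b⁻¹) • x ≠ x) : HasDeg p H := by
  classical
  have := Fintype.ofFinite H
  by_contra hc
  obtain ⟨c, h1, h2⟩ := (isCharacter_fixedBy (G := H) X).exists_coeff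
  have h3 : ∀ g, (Nat.card (fixedBy X g) : ℂ) = ∑ χ : IrrCharacter H, c χ * (χ : H → ℂ) g :=
    fun g => by simpa [Finset.sum_apply] using congrFun h2 g
  have h4 : Nat.card X = ∑ χ : IrrCharacter H, c χ * charDegree (χ : H → ℂ) := by
    apply Nat.cast_injective (R := ℂ)
    have := h3 1
    rw [fixedBy_one_eq_univ, Nat.card_congr (Equiv.Set.univ X)] at this
    rw [this]
    push_cast
    exact sum_congr rfl fun χ _ => by rw [cast_charDegree χ.2.isCharacter]
  have h5 : c (irrOne H) ≠ 0 := by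
    intro e
    have h6 := h1 (irrOne H)
    rw [e, classInner] at h6
    simp only [irrOne_apply, map_one, mul_one, Nat.cast_zero, mul_eq_zero, inv_eq_zero,
      Nat.cast_eq_zero, Nat.card_pos.ne', false_or] at h6
    rw [← Nat.cast_sum, Nat.cast_eq_zero, sum_eq_zero_iff] at h6
    have h7 := h6 1 (mem_univ _)
    rw [fixedBy_one_eq_univ, Nat.card_congr (Equiv.Set.univ X)] at h7
    have : Nonempty X := ⟨x⟩
    exact Nat.card_pos.ne' h7
  have h6 : ∀ χ, c χ ≠ 0 → charDegree (χ : H → ℂ) = 1 := by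
    intro χ hχ
    obtain ⟨n, hn⟩ := hH.exists_card_eq
    obtain ⟨k, -, hk⟩ := (Nat.dvd_prime_pow hp.out).1 (hn ▸ charDegree_dvd_card χ.2)
    rcases k with _ | _ | k
    · simpa using hk
    · exact (hc ⟨χ, by simpa using hk⟩).elim
    · have h7 : p ^ 2 ≤ charDegree (χ : H → ℂ) := hk ▸ Nat.pow_le_pow_right hp.out.pos (by omega)
      have h8 : charDegree (irrOne H : H → ℂ) = 1 := by simp [charDegree]
      have h9 : χ ≠ irrOne H := by
        rintro rfl
        have := Nat.one_lt_pow two_ne_zero hp.out.one_lt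
        omega
      have h10 := add_le_sum (s := univ) (f := fun χ : IrrCharacter H => c χ * charDegree (χ : H → ℂ))
        (fun _ _ => Nat.zero_le _) (mem_univ χ) (mem_univ _) h9
      have h11 := Nat.le_mul_of_pos_left (charDegree (χ : H → ℂ)) (Nat.pos_of_ne_zero hχ)
      simp only [h8] at h10
      omega
  have h7 : Nat.card (fixedBy X (a * b * a⁻¹ * b⁻¹)) = Nat.card X := by
    apply Nat.cast_injective (R := ℂ)
    rw [h3, h4]
    push_cast
    refine sum_congr rfl fun χ _ => ?_
    by_cases hχ : c χ = 0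
    · simp [hχ]
    · have h8 := h6 χ hχ
      obtain ⟨lam, hl⟩ := χ.2.isCharacter.exists_linear (by
        rw [← cast_charDegree χ.2.isCharacter, h8, Nat.cast_one])
      rw [h8, hl]
      simp only [map_mul, map_inv, mul_comm (lam a), mul_inv_cancel_right, mul_inv_cancel,
        Units.val_one, Nat.cast_one]
  have h8 := Set.eq_univ_iff_ncard (fixedBy X (a * b * a⁻¹ * b⁻¹)) |>.2 h7
  exact h (h8 ▸ Set.mem_univ x : x ∈ fixedBy X _)

theorem hasDeg_of_small {H Y : Type*} [Group H] [Finite H] [Finite Y] (hH : IsPGroup p H)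
    (hY : Nat.card Y < p ^ 3) (f : H →* Perm Y) {a b : H} (h : f a * f b ≠ f b * f a) :
    HasDeg p H := by
  let : MulAction H Y := MulAction.compHom Y f
  obtain ⟨y, hy⟩ : ∃ y : Y, (a * b * a⁻¹ * b⁻¹) • y ≠ y := by
    by_contra hc
    push Not at hc
    apply h
    rw [← mul_inv_eq_one, mul_inv_rev, ← mul_assoc, ← map_inv, ← map_inv, ← map_mul, ← map_mul,
      ← map_mul]
    exact Equiv.ext hc
  refine hasDeg_of_action (X := orbit H y) hH ?_ (x := ⟨y, mem_orbit_self y⟩)
    fun e => hy (congrArg Subtype.val e)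
  obtain ⟨k, hk⟩ := hH.card_orbit y
  have h1 : Nat.card (orbit H y) ≤ Nat.card Y :=
    Nat.card_le_card_of_injective _ Subtype.val_injective
  rw [hk] at h1 ⊢
  exact Nat.pow_le_pow_right hp.out.pos
    (Nat.le_of_lt_succ ((Nat.pow_lt_pow_iff_right hp.out.one_lt).1 (h1.trans_lt hY)))

/-- The wreath product. -/
abbrev Wr {ι : Type*} (K : Type*) [Group K] (R : Subgroup (Perm ι)) :=
  (ι → K) ⋊[mulAutArrow] R

/-- Permuting the blocks. -/
def permL (ι K : Type*) : Perm ι →* Perm (ι × K) where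
  toFun r := prodCongrLeft fun _ => r
  map_one' := by ext ⟨i, a⟩ <;> simp
  map_mul' v u := by ext ⟨i, a⟩ <;> simp

/-- The imprimitive action of the wreath product. -/
def wrHom {ι : Type*} (K : Type*) [Group K] (R : Subgroup (Perm ι)) : Wr K R →* Perm (ι × K) :=
  SemidirectProduct.lift (prodReg ι K) ((permL ι K).comp R.subtype) fun r => by
    refine MonoidHom.ext fun v => Equiv.ext fun ⟨i, a⟩ => Prod.ext ?_ rfl
    exact (r.1.apply_symm_apply i).symm

theorem wrHom_apply {ι K : Type*} [Group K] {R : Subgroup (Perm ι)} (g : Wr K R) (i : ι) (a : K) :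
    wrHom K R g (i, a) = (g.right.1 i, g.left (g.right.1 i) * a) := rfl

theorem wrHom_injective {ι : Type*} (K : Type*) [Group K] (R : Subgroup (Perm ι)) :
    Injective (wrHom K R) := by
  rw [injective_iff_map_eq_one]
  intro g hg
  have h1 : ∀ i, g.right.1 i = i ∧ g.left (g.right.1 i) = 1 := fun i => by
    have := wrHom_apply g i 1
    rw [hg] at this
    simpa [eq_comm] using this
  ext i
  · have := (h1 i).2
    rwa [(h1 i).1] at this
  · exact (h1 i).1

theorem sign_wrHom {ι K : Type*} [Fintype ι] [DecidableEq ι] [Group K] [Fintype K] [DecidableEq K]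
    {R : Subgroup (Perm ι)} (g : Wr K R) :
    Perm.sign (wrHom K R g) = (∏ i, Perm.sign (Equiv.mulLeft (g.left i))) *
      Perm.sign g.right.1 ^ Fintype.card K := by
  change Perm.sign (prodReg ι K g.left * permL ι K g.right.1) = _
  rw [map_mul]
  congr 1
  · exact Perm.sign_prodCongrRight fun i => Equiv.mulLeft (g.left i)
  · exact (Perm.sign_prodCongrLeft fun _ : K => g.right.1).trans (by simp)

theorem card_wr (w : ℕ) (R : Sylow p (Perm (Fin w))) :
    Nat.card (Wr (Multiplicative (ZMod p)) R.1) = p ^ (p * w).factorial.factorization p := by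
  rw [SemidirectProduct.card, R.card_eq_multiplicity, Nat.card_perm, Nat.card_fin,
    Nat.factorization_factorial_mul hp.out, pow_add, mul_comm]
  simp

theorem exists_apply_ne {w : ℕ} (hw : p ≤ w) (R : Sylow p (Perm (Fin w))) :
    ∃ r : R.1, ∃ i, r.1 i ≠ i := by
  by_contra hc
  push Not at hc
  have h1 : Nat.card R.1 = 1 := Nat.card_eq_one_iff_unique.2
    ⟨⟨fun a b => Subtype.ext (Equiv.ext fun i => (hc a i).trans (hc b i).symm)⟩, ⟨1⟩⟩
  rw [R.card_eq_multiplicity, Nat.card_perm, Nat.card_fin, Nat.pow_eq_one] at h1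
  rcases h1 with h1 | h1
  · exact hp.out.ne_one h1
  · exact (hp.out.factorization_pos_of_dvd w.factorial_ne_zero
      (hp.out.dvd_factorial.2 hw)).ne' h1

theorem wrHom_not_commute {ι K : Type*} [Group K] {R : Subgroup (Perm ι)} {r : R} {v : ι → K}
    {i : ι} (h : v (r.1 i) ≠ v i) :
    wrHom K R (.inl v) * wrHom K R (.inr r) ≠ wrHom K R (.inr r) * wrHom K R (.inl v) := by
  intro e
  have := congrArg (fun σ : Perm (ι × K) => (σ (i, 1)).2) e
  simp only [Perm.mul_apply, wrHom_apply] at this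
  exact h (by simpa using this)

theorem hasDeg_sylow (n : ℕ) : p ^ 2 ≤ n → ∀ P : Sylow p (Perm (Fin n)), HasDeg p P := by
  induction n using Nat.strong_induction_on with
  | _ n ih =>
  intro hn P
  have hp0 := hp.out.pos
  have h1 : p ≤ n / p := (Nat.le_div_iff_mul_le hp0).2 (by rwa [← sq])
  obtain ⟨R⟩ : Nonempty (Sylow p (Perm (Fin (n / p)))) := inferInstance
  have h2 : HasDeg p (Wr (Multiplicative (ZMod p)) R.1) := by
    rcases le_or_gt (p ^ 2) (n / p) with h3 | h3
    · exact (ih _ (Nat.div_lt_self (by have := pow_pos hp0 2; omega) hp.out.one_lt) h3 R).of_surjective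
        _ SemidirectProduct.rightHom_surjective
    · obtain ⟨r, i, hr⟩ := exists_apply_ne h1 R
      have : Finite (Wr (Multiplicative (ZMod p)) R.1) :=
        Finite.of_injective _ (wrHom_injective _ _)
      refine hasDeg_of_small (IsPGroup.of_card (card_wr _ R)) ?_ (wrHom _ _)
        (wrHom_not_commute (r := r) (i := i) (v := Pi.mulSingle i (Multiplicative.ofAdd 1)) ?_)
      · simpa [pow_succ] using (Nat.mul_lt_mul_right hp0).2 h3
      · rw [Pi.mulSingle_eq_of_ne hr, Pi.mulSingle_eq_same]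
        exact fun e => zero_ne_one (α := ZMod p) (congrArg Multiplicative.toAdd e)
  obtain ⟨e⟩ : Nonempty (Fin (n / p) × Multiplicative (ZMod p) ↪ Fin n) :=
    Function.Embedding.nonempty_of_card_le (by simpa using Nat.div_mul_le_self n p)
  have h3 : Injective ((Perm.viaEmbeddingHom e).comp (wrHom _ R.1)) :=
    (Perm.viaEmbeddingHom_injective e).comp (wrHom_injective _ _)
  have h4 : Nat.card ((Perm.viaEmbeddingHom e).comp (wrHom _ R.1)).range =
      p ^ (Nat.card (Perm (Fin n))).factorization p := by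
    rw [← Nat.card_congr (MonoidHom.ofInjective h3).toEquiv, card_wr, Nat.card_perm, Nat.card_fin]
    conv_rhs => rw [← Nat.div_add_mod n p, Nat.factorization_def _ hp.out,
      padicValNat_factorial_mul_add _ (Nat.mod_lt n hp0), ← Nat.factorization_def _ hp.out]
  let f := (P.equiv (Sylow.ofCard _ h4)).trans (MonoidHom.ofInjective h3).symm
  exact h2.of_surjective f.toMonoidHom f.surjective

theorem exists_hom_to {α W : Type*} [Fintype α] [DecidableEq α] [Group W]
    {P : Subgroup (Perm α)} {D : Subgroup (alternatingGroup α)}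
    (h : P ⊓ alternatingGroup α = D.map (alternatingGroup α).subtype) (Φ : W →* Perm α)
    (hΦ : Injective Φ) (hr : Φ.range = P) :
    ∃ g : D →* W, Injective g ∧ ∀ w, Perm.sign (Φ w) = 1 → ∃ d, g d = w := by
  have h1 : ∀ d : D, ((alternatingGroup α).subtype.comp D.subtype) d ∈ Φ.range := fun d => by
    rw [hr]
    exact (h.ge ⟨d, d.2, rfl⟩).1
  refine ⟨(MonoidHom.ofInjective hΦ).symm.toMonoidHom.comp (MonoidHom.codRestrict _ _ h1),
    (MonoidHom.ofInjective hΦ).symm.injective.comp fun a b e =>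
      Subtype.ext (Subtype.ext (congrArg (Subtype.val : Φ.range → Perm α) e)), fun w hw => ?_⟩
  obtain ⟨d, hd, e⟩ := h.le ⟨hr ▸ ⟨w, rfl⟩, hw⟩
  refine ⟨⟨d, hd⟩, ?_⟩
  change (MonoidHom.ofInjective hΦ).symm _ = w
  rw [MulEquiv.symm_apply_eq]
  exact Subtype.ext e

end Cfsg.Agent.SymCh
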