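import Cfsg.Agent.Comp.Basic
import Cfsg.Agent.Comp.Digits

/-!
# Kernel certificates for the vanishing of quotients of monomial modules
-/

set_option autoImplicit false

namespace Cfsg.Agent.MonoC

open Finset Cfsg.Agent.Comp Cfsg.Agent.Comp.Dig

/-- Digit extraction by a mask. -/
def dg (f M n i : ℕ) : ℕ := Nat.land (Nat.shiftRight n (Nat.mul f i)) M

theorem dg_eq (f : ℕ) {M : ℕ} (h : M = 2 ^ f - 1) (n i : ℕ) : dg f M n i = Dig.dig f n i :=
  h ▸ Nat.and_two_pow_sub_one_eq_mod _ _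

/-- Translate of a packed sparse vector. -/
noncomputable def tr (p T wt len v : ℕ) : ℕ :=
  sumR len fun t => force (dg 20 1048575 v t) fun e =>
    force (dg 22 4194303 T (Nat.shiftRight e 3)) fun x =>
      Nat.shiftLeft (Nat.add (Nat.mul (Nat.land x 16383) 8)
        (Nat.mod (Nat.mul (Nat.land e 7) (dg 4 15 wt (Nat.shiftRight x 14))) p)) (Nat.mul 20 t)

/-- Add a multiple of a sparse vector to a dense accumulator. -/
noncomputable def addV (p c len v x : ℕ) : ℕ :=
  Nat.add (Nat.succ x) (ite' (Nat.beq c 0) 0 (sumR len fun t => force (dg 20 1048575 v t) fun e =>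
    Nat.shiftLeft (Nat.mod (Nat.mul c (Nat.land e 7)) p)
      (Nat.mul 32 (Nat.succ (Nat.shiftRight e 3)))))

/-- Add the translates prescribed by a tree, read from the stream `S`. -/
noncomputable def go (p : ℕ) (T : ℕ → ℕ) (wt S len fuel : ℕ) : ℕ → ℕ → ℕ :=
  Nat.rec (motive := fun _ => ℕ → ℕ → ℕ) (fun _ x => x) (fun _ ih v x =>
    force (Nat.land x 4294967295) fun pos => ite' (Nat.blt pos 4000000)
      (force (dg 5 31 S pos) fun s => force (addV p (Nat.land s 7) len v x) fun x1 =>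
        force (ite' (tb s 3) (force (tr p (T 0) wt len v) fun v' => ih v' x1) x1) fun x2 =>
          ite' (tb s 4) (force (tr p (T 1) wt len v) fun v' => ih v' x2) x2) x) fuel

/-- Translate by a word. -/
noncomputable def trW (p : ℕ) (T : ℕ → ℕ) (wt len v : ℕ) (w : List ℕ) : ℕ :=
  List.rec (motive := fun _ => ℕ) v (fun k _ ih => force ih (tr p (T k) wt len)) w

/-- A seed is invariant under its two words. -/
noncomputable def seedB (p : ℕ) (T : ℕ → ℕ) (wt : ℕ) (s : ℕ × ℕ × List ℕ × List ℕ) : Bool :=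
  and' (Nat.ble s.1 128) (and'
    (Nat.beq (addV p 1 s.1 (trW p T wt s.1 s.2.1 s.2.2.1) 0) (addV p 1 s.1 s.2.1 0))
    (Nat.beq (addV p 1 s.1 (trW p T wt s.1 s.2.1 s.2.2.2) 0) (addV p 1 s.1 s.2.1 0)))

/-- Sum of all the translates. -/
noncomputable def goL (p : ℕ) (T : ℕ → ℕ) (wt S : ℕ) (l : List (ℕ × ℕ × List ℕ × List ℕ)) : ℕ :=
  List.rec (motive := fun _ => ℕ) 0 (fun s _ ih => force ih (go p T wt S s.1 200 s.2.1)) l

/-- The certificate. -/
noncomputable def certB (p m : ℕ) (T : ℕ → ℕ) (wt S : ℕ) (l : List (ℕ × ℕ × List ℕ × List ℕ)) :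
    Bool :=
  and' (allL l (seedB p T wt)) (force (goL p T wt S l) fun x =>
    and' (Nat.blt (Nat.land x 4294967295) 4000000) (force (addV p 1 1 1 x) fun x' =>
      allB m fun j => Nat.beq (Nat.mod (dg 32 4294967295 x' (Nat.succ j)) p) 0))

variable {G V : Type*} [Group G] [AddCommGroup V] [DistribMulAction G V] {p : ℕ} {y : ℕ → V}
  {g : ℕ → G} {T : ℕ → ℕ} {wt : ℕ}

/-- Value of a packed sparse vector. -/
def ev (y : ℕ → V) (len v : ℕ) : V :=
  ∑ t ∈ range len, (Dig.dig 20 v t % 8) • y (Dig.dig 20 v t / 8)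

/-- Value of a word. -/
def evW (g : ℕ → G) (w : List ℕ) : G := (w.map g).prod

/-- The tables describe the action. -/
structure Tab (p : ℕ) (y : ℕ → V) (g : ℕ → G) (T : ℕ → ℕ) (wt : ℕ) : Prop where
  pos : 0 < p
  le : p ≤ 8
  tor : ∀ v : V, p • v = 0
  act : ∀ k i, g k • y i =
    Dig.dig 4 wt (Dig.dig 22 (T k) i / 16384) • y (Dig.dig 22 (T k) i % 16384)

theorem mod_smul (h : ∀ v : V, p • v = 0) (c : ℕ) (v : V) : (c % p) • v = c • v := by
  conv_rhs => rw [← Nat.mod_add_div c p, add_smul, mul_smul, h, add_zero]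

theorem land_eq (x : ℕ) (f : ℕ) {M : ℕ} (h : M = 2 ^ f - 1) : Nat.land x M = x % 2 ^ f :=
  h ▸ Nat.and_two_pow_sub_one_eq_mod _ _

theorem land7 (x : ℕ) : Nat.land x 7 = x % 8 := land_eq x 3 rfl

theorem land14 (x : ℕ) : Nat.land x 16383 = x % 16384 := land_eq x 14 rfl

theorem land32 (x : ℕ) : Nat.land x 4294967295 = x % 2 ^ 32 := land_eq x 32 rfl

theorem shr3 (x : ℕ) : Nat.shiftRight x 3 = x / 8 := Nat.shiftRight_eq_div_pow x 3

theorem shr14 (x : ℕ) : Nat.shiftRight x 14 = x / 16384 := Nat.shiftRight_eq_div_pow x 14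

theorem shl_eq (x f t : ℕ) : Nat.shiftLeft x (Nat.mul f t) = x * (2 ^ f) ^ t := by
  rw [← pow_mul]; exact Nat.shiftLeft_eq x _

theorem tr_eq (p T wt len v : ℕ) : tr p T wt len v = ∑ t ∈ range len,
    (Dig.dig 22 T (Dig.dig 20 v t / 8) % 16384 * 8 + Dig.dig 20 v t % 8 *
      Dig.dig 4 wt (Dig.dig 22 T (Dig.dig 20 v t / 8) / 16384) % p) * (2 ^ 20) ^ t := by
  simp only [tr, sumR_eq, force_eq, shl_eq, land7, land14, shr3, shr14]
  simp only [dg_eq 20 (M := 1048575) rfl, dg_eq 22 (M := 4194303) rfl, dg_eq 4 (M := 15) rfl]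
  rfl

theorem addV_eq (p c len v x : ℕ) : addV p c len v x = x + 1 + ∑ t ∈ range len,
    c * (Dig.dig 20 v t % 8) % p * (2 ^ 32) ^ (Dig.dig 20 v t / 8 + 1) := by
  simp only [addV, sumR_eq, force_eq, shl_eq, land7, shr3, ite'_eq, beq_iff,
    dg_eq 20 (M := 1048575) rfl]
  split_ifs with h
  · simp [h]
  · rfl

theorem Tab.ev_tr (h : Tab p y g T wt) (k len v : ℕ) :
    ev y len (tr p (T k) wt len v) = g k • ev y len v := by
  have h1 : ∀ a : ℕ, a % p < 8 := fun a => (Nat.mod_lt a h.pos).trans_le h.le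
  simp only [tr_eq, ev, smul_sum]
  refine sum_congr rfl fun t ht => ?_
  rw [dig_sum_range _ _ _ fun q _ => (Nat.add_lt_add_left (h1 _) _).trans_le (by omega),
    if_pos (mem_range.1 ht), smul_comm, h.act, smul_smul, Nat.mul_add_mod_self_right,
    Nat.mod_eq_of_lt (h1 _), mod_smul h.tor, add_comm, Nat.add_mul_div_right _ _ (by norm_num),
    Nat.div_eq_of_lt (h1 _), zero_add]

theorem Tab.ev_trW (h : Tab p y g T wt) (len v : ℕ) (w : List ℕ) :
    ev y len (trW p T wt len v w) = evW g w • ev y len v := by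
  induction w with
  | nil => simp [trW, evW]
  | cons k w ih =>
    change ev y len (force (trW p T wt len v w) (tr p (T k) wt len)) = _
    rw [force_eq, h.ev_tr, ih, evW, evW, List.map_cons, List.prod_cons, mul_smul]

/-- The accumulator `x` has value `u`. -/
def Acc (y : ℕ → V) (N x : ℕ) (u : V) : Prop :=
  ∃ d : ℕ → ℕ, x = ∑ j ∈ range (N + 1), d j * (2 ^ 32) ^ j ∧ (∀ j, d j ≤ 1024 * d 0) ∧
    d 0 ≤ 4000000 ∧ u = ∑ j ∈ range N, d (j + 1) • y j

variable {N : ℕ}

theorem Acc.zero : Acc y N 0 0 := ⟨0, by simp⟩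

theorem Acc.val {x : ℕ} {u : V} (h : Acc y N x u) :
    u = ∑ j ∈ range N, Dig.dig 32 x (j + 1) • y j := by
  obtain ⟨d, rfl, h1, h2, rfl⟩ := h
  refine sum_congr rfl fun j hj => ?_
  rw [dig_sum_range _ _ _ fun q _ => by have := h1 q; omega, if_pos (by simpa using hj)]

theorem Tab.addV (h : Tab p y g T wt) (hN : 131072 ≤ N) {x : ℕ} {u : V} (hx : Acc y N x u)
    (hp : x % 2 ^ 32 < 4000000) (c : ℕ) {len : ℕ} (hl : len ≤ 128) (v : ℕ) :
    Acc y N (addV p c len v x) (u + c • ev y len v) := by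
  obtain ⟨d, rfl, h1, h2, rfl⟩ := hx
  have h3 := dig_sum_range 32 d (N + 1) (fun q _ => by have := h1 q; omega) 0
  rw [dig_eq_div, pow_zero, Nat.div_one, if_pos (by norm_num)] at h3
  rw [h3] at hp
  have h4 : ∀ t, Dig.dig 20 v t / 8 < N := fun t => by have := dig_lt 20 v t; omega
  refine ⟨fun j => d j + (if j = 0 then 1 else 0) + ∑ t ∈ range len,
    if j = Dig.dig 20 v t / 8 + 1 then c * (Dig.dig 20 v t % 8) % p else 0, ?_, fun j => ?_,
    by simpa, ?_⟩
  · simp only [addV_eq, add_mul, sum_add_distrib, sum_mul, ite_mul, zero_mul]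
    rw [sum_comm]
    simp [h4]
  · have h5 : ∑ t ∈ range len, (if j = Dig.dig 20 v t / 8 + 1 then
        c * (Dig.dig 20 v t % 8) % p else 0) ≤ ∑ t ∈ range len, 7 := sum_le_sum fun t _ => by
      have := Nat.mod_lt (c * (Dig.dig 20 v t % 8)) h.pos
      have := h.le
      split_ifs <;> omega
    have := h1 j
    simp only [sum_const, card_range, smul_eq_mul, if_true, Nat.zero_ne_add_one, if_false,
      mul_zero] at h5 ⊢
    split_ifs <;> omega
  · simp only [add_smul, sum_add_distrib, sum_smul, ite_smul, zero_smul, ev, smul_sum,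
      add_left_inj, Nat.add_one_ne_zero, if_false, add_zero, smul_smul, mod_smul h.tor]
    rw [sum_comm]
    simp only [sum_ite_eq', mem_range, h4, if_true]

theorem go_succ (p : ℕ) (T : ℕ → ℕ) (wt S len f v x : ℕ) : go p T wt S len (f + 1) v x =
    force (Nat.land x 4294967295) fun pos => ite' (Nat.blt pos 4000000)
      (force (dg 5 31 S pos) fun s => force (addV p (Nat.land s 7) len v x) fun x1 =>
        force (ite' (tb s 3) (force (tr p (T 0) wt len v) fun v' => go p T wt S len f v' x1) x1)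
          fun x2 => ite' (tb s 4)
            (force (tr p (T 1) wt len v) fun v' => go p T wt S len f v' x2) x2) x := rfl

theorem Tab.go (h : Tab p y g T wt) (hN : 131072 ≤ N) (S : ℕ) {len : ℕ} (hl : len ≤ 128)
    (fuel : ℕ) : ∀ v x, ev y len v = 0 → Acc y N x 0 → Acc y N (go p T wt S len fuel v x) 0 := by
  induction fuel with
  | zero => exact fun _ _ _ hx => hx
  | succ f ih =>
    intro v x hv hx
    simp only [go_succ, force_eq, ite'_eq, blt_iff, land32]
    by_cases h1 : x % 2 ^ 32 < 4000000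
    swap
    · rwa [if_neg h1]
    have h4 := h.addV hN hx h1 (Nat.land (dg 5 31 S (x % 2 ^ 32)) 7) hl v
    have h5 : ∀ k, ev y len (tr p (T k) wt len v) = 0 := fun k => by rw [h.ev_tr, hv, smul_zero]
    rw [hv, smul_zero, add_zero] at h4
    rw [if_pos h1]
    split_ifs
    exacts [ih _ _ (h5 1) (ih _ _ (h5 0) h4), ih _ _ (h5 1) h4, ih _ _ (h5 0) h4, h4]

theorem Tab.eq_zero (h : Tab p y g T wt) {m S : ℕ} {l : List (ℕ × ℕ × List ℕ × List ℕ)}
    (hy : ∀ j, m ≤ j → y j = 0)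
    (hl : ∀ s ∈ l, ∀ v : V, evW g s.2.2.1 • v = v → evW g s.2.2.2 • v = v → v = 0)
    (hc : certB p m T wt S l = true) : y 0 = 0 := by
  obtain ⟨N, hN⟩ : ∃ N, 131072 ≤ N := ⟨_, le_rfl⟩
  simp only [certB, and'_eq_true, allL_iff, force_eq, blt_iff, allB_iff, beq_iff,
    dg_eq 32 (M := 4294967295) rfl, land32] at hc
  obtain ⟨h1, h2, h3⟩ := hc
  have h4 : Acc y N (goL p T wt S l) 0 := by
    clear h2 h3
    induction l with
    | nil => exact Acc.zero
    | cons s l ih =>
      change Acc y N (force (goL p T wt S l) (MonoC.go p T wt S s.1 200 s.2.1)) 0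
      have h5 := h1 s List.mem_cons_self
      simp only [seedB, and'_eq_true, ble_iff, beq_iff] at h5
      have h6 : ∀ w, MonoC.addV p 1 s.1 (trW p T wt s.1 s.2.1 w) 0 = MonoC.addV p 1 s.1 s.2.1 0 →
          evW g w • ev y s.1 s.2.1 = ev y s.1 s.2.1 := fun w hw => by
        have h6 := (h.addV hN Acc.zero (by norm_num) 1 h5.1 (trW p T wt s.1 s.2.1 w)).val
        rw [hw, ← (h.addV hN Acc.zero (by norm_num) 1 h5.1 s.2.1).val, h.ev_trW] at h6
        simpa using h6
      rw [force_eq]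
      exact h.go hN S h5.1 _ _ _ (hl s List.mem_cons_self _ (h6 _ h5.2.1) (h6 _ h5.2.2))
        (ih (fun s hs => hl s (List.mem_cons_of_mem _ hs))
          fun s hs => h1 s (List.mem_cons_of_mem _ hs))
  have h5 := (h.addV hN h4 h2 1 (len := 1) (by norm_num) 1).val
  rw [sum_eq_zero fun j _ => ?_] at h5
  · simpa [ev, show Dig.dig 20 1 0 = 1 from rfl] using h5
  · rcases lt_or_ge j m with hj | hj
    · rw [← mod_smul h.tor, show _ % p = 0 from h3 j hj, zero_smul]
    · rw [hy j hj, smul_zero]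

end Cfsg.Agent.MonoC
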