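import Cfsg.Agent.Sym.MonoA

/-!
# Monomial module certificates for alternating groups
-/

set_option autoImplicit false

namespace Cfsg.Agent.MonoC

open Finset Cfsg.Agent.Comp Cfsg.Agent.Comp.Dig

variable {n : ℕ}

/-- The code `c` is the table of `x`. -/
def Rep (c : ℕ) (x : alternatingGroup (Fin n)) : Prop := ∀ i : Fin n, Dig.dig 4 c i = x.1 i

noncomputable def idC (n : ℕ) : ℕ := sumR n fun i => Nat.shiftLeft i (Nat.mul 4 i)

noncomputable def mulC (n c d : ℕ) : ℕ := force c fun c => force d fun d =>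
  sumR n fun i => Nat.shiftLeft (dg 4 15 c (dg 4 15 d i)) (Nat.mul 4 i)

noncomputable def powC (n c k : ℕ) : ℕ :=
  force c fun c => Nat.rec (motive := fun _ => ℕ) (idC n) (fun _ ih => mulC n c ih) k

noncomputable def evC (n : ℕ) (gc : ℕ → ℕ) (w : List ℕ) : ℕ :=
  List.rec (motive := fun _ => ℕ) (idC n) (fun k _ ih => mulC n (gc k) ih) w

noncomputable def belC (n : ℕ) (gc : ℕ → ℕ) (l : List (List ℕ × ℕ)) : ℕ → ℕ :=
  List.rec (motive := fun _ => ℕ → ℕ) (fun _ => idC n)
    (fun s _ ih j => mulC n (powC n (evC n gc s.1) (Nat.mod j s.2)) (ih (Nat.div j s.2))) l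

/-- Elements of the inducing subgroup. -/
def bel {G : Type*} [Group G] (g : ℕ → G) : List (List ℕ × ℕ) → ℕ → G
  | [], _ => 1
  | s :: l, j => evW g s.1 ^ (j % s.2) * bel g l (j / s.2)

/-- Values of the inducing character. -/
def wtN : List (List ℕ × ℕ) → List ℕ → ℕ → ℕ
  | s :: l, c :: cs, j => c ^ (j % s.2) * wtN l cs (j / s.2)
  | _, _, _ => 1

noncomputable def wtT (p : ℕ) (l : List (List ℕ × ℕ)) (cs : List ℕ) : ℕ :=
  sumR 256 fun j => Nat.shiftLeft (ite' (Nat.beq j 0) 0 (wtN l cs (j - 1) % p)) (Nat.mul 4 j)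

noncomputable def two {α : Type} (a b : α) (k : ℕ) : α := ite' (Nat.beq k 0) a b

noncomputable def rc (R i : ℕ) : ℕ := dg 40 1099511627775 R i

noncomputable def tabB (n m : ℕ) (gc : ℕ → ℕ) (l : List (List ℕ × ℕ)) (R Q BT : ℕ) (T : ℕ → ℕ) :
    Bool :=
  and' (allB 256 fun j => Nat.beq (rc BT j) (belC n gc l j)) <|
  and' (Nat.beq (rc R 0) (idC n)) <|
  and' (allB m fun i => or' (Nat.beq i 0) (force (dg 16 65535 Q i) fun q =>
    and' (Nat.blt (Nat.div q 2) i)
      (Nat.beq (rc R i) (mulC n (gc (Nat.mod q 2)) (rc R (Nat.div q 2)))))) <|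
  allLT 2 fun k => and' (Nat.blt (T k) (Nat.pow 4194304 m)) <|
    allB m fun i => force (dg 22 4194303 (T k) i) fun x =>
      and' (Nat.blt (Nat.land x 16383) m) (and' (Nat.ble 16384 x)
        (Nat.beq (mulC n (gc k) (rc R i))
          (mulC n (rc R (Nat.land x 16383)) (rc BT (Nat.pred (Nat.shiftRight x 14))))))

noncomputable def critB (n : ℕ) (gc : ℕ → ℕ) (s : ℕ × ℕ × List ℕ × List ℕ) : Bool :=
  force (evC n gc s.2.2.1) fun x => force (evC n gc s.2.2.2) fun z =>
    and' (Nat.beq (powC n x 2) (idC n)) (and' (Nat.beq (powC n z 3) (idC n))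
      (and' (Nat.beq (powC n (mulC n x z) 35) (idC n))
        (anyLT n fun i => not' (Nat.beq (dg 4 15 x i) i))))

variable {c d : ℕ} {x z : alternatingGroup (Fin n)} {gc : ℕ → ℕ}
  {g : ℕ → alternatingGroup (Fin n)}

theorem Rep.inj (h : Rep c x) (h' : Rep c z) : x = z :=
  Subtype.ext (Equiv.ext fun i => Fin.ext ((h i).symm.trans (h' i)))

theorem rep_id (hn : n ≤ 16) : Rep (idC n) (1 : alternatingGroup (Fin n)) := fun i => by
  simp only [idC, sumR_eq, shl_eq]
  rw [dig_sum_range _ _ _ fun q hq => by omega, if_pos i.2]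
  rfl

theorem Rep.mul (h : Rep c x) (h' : Rep d z) : Rep (mulC n c d) (x * z) := fun i => by
  simp only [mulC, force_eq, sumR_eq, shl_eq, dg_eq 4 (M := 15) rfl]
  rw [dig_sum_range _ _ _ fun q _ => dig_lt _ _ _, if_pos i.2, h', h]
  rfl

theorem Rep.pow (hn : n ≤ 16) (h : Rep c x) (k : ℕ) : Rep (powC n c k) (x ^ k) := by
  rw [powC, force_eq]
  induction k with
  | zero => exact rep_id hn
  | succ k ih => rw [pow_succ']; exact h.mul ih

theorem rep_evC (hn : n ≤ 16) (h : ∀ k, Rep (gc k) (g k)) (w : List ℕ) :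
    Rep (evC n gc w) (evW g w) := by
  induction w with
  | nil => exact rep_id hn
  | cons k w ih => exact (h k).mul ih

theorem rep_belC (hn : n ≤ 16) (h : ∀ k, Rep (gc k) (g k)) (l : List (List ℕ × ℕ)) :
    ∀ j, Rep (belC n gc l j) (bel g l j) := by
  induction l with
  | nil => exact fun _ => rep_id hn
  | cons s l ih => exact fun j => ((rep_evC hn h s.1).pow hn _).mul (ih _)

theorem rep_two {a b : alternatingGroup (Fin n)} (ha : Rep c a) (hb : Rep d b) (k : ℕ) :
    Rep (two c d k) (two a b k) := by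
  simp only [two, ite'_eq]
  split_ifs <;> assumption

variable {V : Type*} [AddCommGroup V] [DistribMulAction (alternatingGroup (Fin n)) V]

theorem bel_smul {v : V} {l : List (List ℕ × ℕ)} {cs : List ℕ}
    (h : List.Forall₂ (fun s c => evW g s.1 • v = c • v) l cs) :
    ∀ j, bel g l j • v = wtN l cs j • v := by
  induction h with
  | nil => simp [bel, wtN]
  | @cons s c l cs h _ ih =>
    intro j
    rw [bel, wtN, mul_smul, ih, smul_comm, mul_comm, mul_smul]
    congr 1
    induction j % s.2 with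
    | zero => simp
    | succ k ih => rw [pow_succ, mul_smul, h, smul_comm, ih, pow_succ', mul_smul]

theorem eq_zero {p m ca cb R Q BT Ta Tb S : ℕ} {a b : alternatingGroup (Fin n)}
    {l : List (List ℕ × ℕ)} {cs : List ℕ} {L : List (ℕ × ℕ × List ℕ × List ℕ)} (hn : n ≤ 16)
    (hp : 0 < p) (hp' : p ≤ 8) (hm : 0 < m) (ha : Rep ca a) (hb : Rep cb b)
    (hT : tabB n m (two ca cb) l R Q BT (two Ta Tb) = true)
    (hC : and' (allL L (critB n (two ca cb)))
      (force (wtT p l cs) fun wt => certB p m (two Ta Tb) wt S L) = true)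
    (tor : ∀ v : V, p • v = 0)
    (hV : ∀ x z : alternatingGroup (Fin n), x ^ 2 = 1 → z ^ 3 = 1 → (x * z) ^ 35 = 1 → x ≠ 1 →
      ∀ v : V, x • v = v → z • v = v → v = 0)
    {v : V} (hv : List.Forall₂ (fun s c => evW (two a b) s.1 • v = c • v) l cs) : v = 0 := by
  have hg := rep_two ha hb
  simp only [tabB, and'_eq_true, or'_eq_true, allB_iff, allLT_iff, beq_iff, blt_iff, ble_iff,
    force_eq, land14, shr14, dg_eq 22 (M := 4194303) rfl, allL_iff] at hT hC
  obtain ⟨h1, h2, h3, h4⟩ := hT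
  have h5 : ∀ i, ∃ r : alternatingGroup (Fin n), i < m → Rep (rc R i) r := fun i => by
    induction i using Nat.strong_induction_on with
    | _ i ih =>
    by_cases hi : i < m
    · rcases h3 i hi with rfl | ⟨h6, h7⟩
      · exact ⟨1, fun _ => h2 ▸ rep_id hn⟩
      · obtain ⟨r, hr⟩ := ih _ h6
        exact ⟨_, fun _ => h7 ▸ (hg _).mul (hr (h6.trans hi))⟩
    · exact ⟨1, fun h => (hi h).elim⟩
  choose r hr using h5
  have h6 : ∀ j < 256, Dig.dig 4 (wtT p l cs) j = if j = 0 then 0 else wtN l cs (j - 1) % p := by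
    intro j hj
    simp only [wtT, sumR_eq, shl_eq, ite'_eq, beq_iff]
    rw [dig_sum_range _ _ _ fun q _ => ?_, if_pos hj]
    have := Nat.mod_lt (wtN l cs (q - 1)) hp
    split_ifs <;> omega
  have h7 : Tab p (fun i => if i < m then r i • v else 0) (two a b) (two Ta Tb) (wtT p l cs) := by
    refine ⟨hp, hp', tor, fun k i => ?_⟩
    obtain ⟨k, hk, e1, e2, e3⟩ : ∃ k' < 2, two a b k = two a b k' ∧ two Ta Tb k = two Ta Tb k' ∧
        True := by
      cases k
      exacts [⟨0, two_pos, rfl, rfl, trivial⟩, ⟨1, one_lt_two, rfl, rfl, trivial⟩]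
    rw [e1, e2]
    by_cases hi : i < m
    · obtain ⟨h7, h8, h9⟩ := (h4 k hk).2 i hi
      have h10 := dig_lt 22 (two Ta Tb k) i
      rw [h1 _ (by simp only [Nat.pred_eq_sub_one]; omega)] at h9
      rw [if_pos hi, if_pos h7, h6 _ (by omega), if_neg (by omega), mod_smul tor, smul_smul,
        ((hg k).mul (hr i hi)).inj (h9 ▸ (hr _ h7).mul (rep_belC hn hg l _)), mul_smul,
        bel_smul hv, smul_comm]
      rfl
    · rw [if_neg hi, dig_eq_zero_of_lt (h4 k hk).1 (not_lt.1 hi), Nat.zero_div, h6 0 (by norm_num)]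
      simp
  have h8 := h7.eq_zero (fun j hj => if_neg (not_lt.2 hj)) (fun s hs => by
    have h8 := hC.1 s hs
    simp only [critB, force_eq, and'_eq_true, beq_iff, anyLT_iff, not'_eq_true,
      dg_eq 4 (M := 15) rfl] at h8
    obtain ⟨e1, e2, e3, i, hi, e4⟩ := h8
    have f1 := rep_evC hn hg s.2.2.1
    have f2 := rep_evC hn hg s.2.2.2
    exact hV _ _ ((f1.pow hn 2).inj (e1 ▸ rep_id hn)) ((f2.pow hn 3).inj (e2 ▸ rep_id hn))
      (((f1.mul f2).pow hn 35).inj (e3 ▸ rep_id hn)) fun h => e4 ((f1 ⟨i, hi⟩).trans (by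
        rw [h]; rfl))) hC.2
  rwa [if_pos hm, (hr 0 hm).inj (h2 ▸ rep_id hn), one_smul] at h8

end Cfsg.Agent.MonoC
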