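import Cfsg.Agent.Sym.MonoD2

/-!
# Fixed vectors and eigenvectors; the case of `A₉` in characteristic 2
-/

set_option autoImplicit false

namespace Cfsg.Agent.MonoC

open Cfsg.Agent.Comp Equiv

variable {n : ℕ} {V : Type*} [AddCommGroup V] [DistribMulAction (alternatingGroup (Fin n)) V]

/-- The first `N` elements of the table form a group of exponent dividing `e`. -/
noncomputable def grpB (n N e BT : ℕ) : Bool :=
  allLT N fun i => and' (Nat.beq (powC n (rc BT i) e) (idC n)) <|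
    allLT N fun j => force (mulC n (rc BT i) (rc BT j)) fun c => anyLT N fun t => Nat.beq c (rc BT t)

theorem bel_zero {G : Type*} [Group G] (g : ℕ → G) (l : List (List ℕ × ℕ)) : bel g l 0 = 1 := by
  induction l with
  | nil => rfl
  | cons s l ih => simp [bel, ih]

theorem exists_fix [Finite V] [Nontrivial V] {p k N m ca cb R Q BT : ℕ} {T : ℕ → ℕ}
    {a b : alternatingGroup (Fin n)} {l : List (List ℕ × ℕ)} (hn : n ≤ 16) (hp : p.Prime)
    (ha : Rep ca a) (hb : Rep cb b) (hT : tabB n m (two ca cb) l R Q BT T = true)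
    (hN : 0 < N) (hN' : N ≤ 256) (hG : grpB n N (p ^ k) BT = true) (tor : ∀ v : V, p • v = 0) :
    ∃ v : V, v ≠ 0 ∧ ∀ j < N, bel (two a b) l j • v = v := by
  have := Fact.mk hp
  simp only [tabB, grpB, and'_eq_true, allB_iff, allLT_iff, anyLT_iff, beq_iff, force_eq] at hT hG
  have h1 : ∀ j < N, Rep (rc BT j) (bel (two a b) l j) := fun j hj =>
    hT.1 j (by omega) ▸ rep_belC hn (rep_two ha hb) l j
  let S : Submonoid (alternatingGroup (Fin n)) :=
    { carrier := {x | ∃ j < N, x = bel (two a b) l j}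
      one_mem' := ⟨0, hN, (bel_zero _ _).symm⟩
      mul_mem' := by
        rintro _ _ ⟨i, hi, rfl⟩ ⟨j, hj, rfl⟩
        obtain ⟨t, ht, e⟩ := (hG i hi).2 j hj
        exact ⟨t, ht, ((h1 i hi).mul (h1 j hj)).inj (e ▸ h1 t ht)⟩ }
  have h2 : ∀ x ∈ S, x ^ p ^ k = 1 := by
    rintro _ ⟨i, hi, rfl⟩
    exact ((h1 i hi).pow hn _).inj ((hG i hi).1 ▸ rep_id hn)
  let P : Subgroup (alternatingGroup (Fin n)) :=
    { S with
      inv_mem' := fun {x} hx => by
        rw [inv_eq_of_mul_eq_one_left ((pow_sub_one_mul (pow_pos hp.pos k).ne' x).trans (h2 x hx))]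
        exact S.pow_mem hx _ }
  have hP : IsPGroup p P := fun x => ⟨k, Subtype.ext (h2 x x.2)⟩
  obtain ⟨v, hv⟩ := exists_ne (0 : V)
  obtain ⟨w, h3, h4⟩ := hP.exists_fixed_point_of_prime_dvd_card_of_fixed_point V
    (addOrderOf_eq_prime (tor v) hv ▸ addOrderOf_dvd_natCard v) (a := 0) fun x => smul_zero x
  exact ⟨w, h4.symm, fun j hj => h3 ⟨_, j, hj, rfl⟩⟩

theorem exists_eig {G V : Type*} [Group G] [AddCommGroup V] [DistribMulAction G V] (g : G)
    (W : AddSubgroup V) (hW : ∀ w ∈ W, g • w ∈ W) {w : V} (hw : w ∈ W) (h0 : w ≠ 0)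
    (cs : List ℕ) (h : cs.foldr (fun c x => g • x - c • x) w = 0) :
    ∃ c ∈ cs, ∃ v ∈ W, v ≠ 0 ∧ g • v = c • v := by
  have h1 : ∀ cs : List ℕ, cs.foldr (fun c x => g • x - c • x) w ∈ W := fun cs => by
    induction cs with
    | nil => exact hw
    | cons c cs ih => exact W.sub_mem (hW _ ih) (W.nsmul_mem ih c)
  induction cs with
  | nil => exact (h0 h).elim
  | cons c cs ih =>
    by_cases h2 : cs.foldr (fun c x => g • x - c • x) w = 0
    · obtain ⟨c, hc, h3⟩ := ih h2
      exact ⟨c, List.mem_cons_of_mem _ hc, h3⟩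
    · exact ⟨c, List.mem_cons_self, _, h1 cs, h2, sub_eq_zero.1 h⟩

/-- Every nonzero vector has a stabilizer without `(2,3,35)`-pairs. -/
def Free (G V : Type*) [Group G] [AddCommGroup V] [DistribMulAction G V] : Prop :=
  ∀ x z : G, x ^ 2 = 1 → z ^ 3 = 1 → (x * z) ^ 35 = 1 → x ≠ 1 →
    ∀ v : V, x • v = v → z • v = v → v = 0

theorem grp2 : grpB 9 64 (2 ^ 3) D2.BT = true := by decide +kernel

theorem mod_two {V : Type*} [AddCommGroup V] [DistribMulAction (alternatingGroup (Fin 9)) V]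
    [Finite V] [Nontrivial V] (tor : ∀ v : V, 2 • v = 0)
    (hV : Free (alternatingGroup (Fin 9)) V) : False := by
  have ha : Rep D2.ca (⟨c[0, 1, 2], Perm.mem_alternatingGroup.2 (by decide +kernel)⟩ :
    alternatingGroup (Fin 9)) := by unfold Rep; decide +kernel
  have hb : Rep D2.cb (⟨c[2, 3, 4, 5, 6, 7, 8], Perm.mem_alternatingGroup.2 (by decide +kernel)⟩ :
    alternatingGroup (Fin 9)) := by unfold Rep; decide +kernel
  obtain ⟨v, h0, hv⟩ := exists_fix (by norm_num) Nat.prime_two ha hb D2.tab (by norm_num)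
    (by norm_num) grp2 tor
  refine h0 (eq_zero (by norm_num) (by norm_num) (by norm_num) (by norm_num) ha hb D2.tab D2.cert
    tor hV ?_)
  have h1 := hv 1 (by norm_num)
  have h2 := hv 2 (by norm_num)
  have h3 := hv 4 (by norm_num)
  have h4 := hv 8 (by norm_num)
  have h5 := hv 16 (by norm_num)
  have h6 := hv 32 (by norm_num)
  simp only [D2.spec, bel, Nat.reduceMod, Nat.reduceDiv, pow_zero, pow_one, one_mul, mul_one,
    List.forall₂_cons, one_smul] at h1 h2 h3 h4 h5 h6 ⊢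
  exact ⟨h1, h2, h3, h4, h5, h6, .nil⟩

end Cfsg.Agent.MonoC
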