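import Cfsg.Agent.Sym.Ht

/-!
# Moving one bead on the abacus
-/

namespace Cfsg.Agent.SymCh

open Finset Function Equiv

variable {N : ℕ}

theorem sum_rk_eq (q : ℕ) {γ : Fin N → ℕ} (h : Injective γ) (j : Fin N) :
    ∑ l, rk q γ l = ∑ l ∈ univ.erase j, #{k | k ≠ j ∧ γ k < γ l ∧ γ k % q = γ l % q} +
      #{k | k ≠ j ∧ γ k % q = γ j % q} := by
  have h1 : ∀ l ∈ univ.erase j, rk q γ l = #{k | k ≠ j ∧ γ k < γ l ∧ γ k % q = γ l % q} +
      if γ j < γ l ∧ γ j % q = γ l % q then 1 else 0 := by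
    intro l _
    rw [rk, card_filter, card_filter, ← add_sum_erase _ _ (mem_univ j),
      ← add_sum_erase _ _ (mem_univ j), add_comm]
    simp only [ne_eq, not_true_eq_false, false_and, if_false, zero_add]
    congr 1
    exact sum_congr rfl fun k hk => by simp [(mem_erase.1 hk).1]
  rw [← add_sum_erase _ _ (mem_univ j), sum_congr rfl h1, sum_add_distrib, add_left_comm]
  congr 1
  rw [rk, card_filter, card_filter, ← add_sum_erase _ _ (mem_univ j),
    ← add_sum_erase univ _ (mem_univ j)]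
  simp only [lt_self_iff_false, false_and, if_false, zero_add, ne_eq, not_true_eq_false,
    ← sum_add_distrib]
  refine sum_congr rfl fun k hk => ?_
  have h2 := (mem_erase.1 hk).1
  by_cases hm : γ k % q = γ j % q
  · rcases lt_or_gt_of_ne (h.ne h2) with h3 | h3
    · simp [h2, hm, h3, h3.not_gt]
    · simp [h2, hm, h3, h3.not_gt]
  · simp [hm, Ne.symm hm]

theorem wt_update {q : ℕ} (hq : 0 < q) {γ : Fin N → ℕ} (h : Injective γ) {j : Fin N} {v : ℕ}
    (h' : Injective (update γ j v)) :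
    wt q (update γ j v) + γ j / q + #{k | k ≠ j ∧ γ k % q = v % q} =
      wt q γ + v / q + #{k | k ≠ j ∧ γ k % q = γ j % q} := by
  have h1 := wt_add hq h
  have h2 := wt_add hq h'
  rw [sum_rk_eq q h j, ← add_sum_erase _ _ (mem_univ j)] at h1
  rw [sum_rk_eq q h' j, ← add_sum_erase _ _ (mem_univ j), update_self] at h2
  have h3 : ∑ l ∈ univ.erase j, #{k | k ≠ j ∧ update γ j v k < update γ j v l ∧
      update γ j v k % q = update γ j v l % q} =
      ∑ l ∈ univ.erase j, #{k | k ≠ j ∧ γ k < γ l ∧ γ k % q = γ l % q} := by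
    refine sum_congr rfl fun l hl => congrArg card (filter_congr fun k _ => ?_)
    refine and_congr_right fun hk => ?_
    rw [update_of_ne hk, update_of_ne (mem_erase.1 hl).1]
  have h4 : #{k | k ≠ j ∧ update γ j v k % q = v % q} = #{k | k ≠ j ∧ γ k % q = v % q} := by
    refine congrArg card (filter_congr fun k _ => and_congr_right fun hk => ?_)
    rw [update_of_ne hk]
  have h5 : ∑ l ∈ univ.erase j, update γ j v l / q = ∑ l ∈ univ.erase j, γ l / q :=
    sum_congr rfl fun l hl => by rw [update_of_ne (mem_erase.1 hl).1]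
  rw [h3, h4, h5] at h2
  omega

theorem mod_eq_add_iff (q c b : ℕ) : c % q = (c + b) % q ↔ q ∣ b := by
  have := Nat.modEq_iff_dvd' (n := q) (Nat.le_add_right c b)
  rwa [Nat.add_sub_cancel_left] at this

theorem cnt1 (q c : ℕ) : ∀ b, #{t ∈ range c | t % q = (c + b) % q} + b / q = (c + b) / q := by
  induction c with
  | zero => simp
  | succ c ih =>
    intro b
    have := ih (b + 1)
    rw [range_add_one, filter_insert, show c + 1 + b = c + (b + 1) by omega, ← this, Nat.succ_div]
    simp only [mod_eq_add_iff]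
    split_ifs
    · rw [card_insert_of_notMem (by simp)]; omega
    · rfl

theorem cnt2 (q s a : ℕ) : #{t ∈ range (s + a + 1) | t ≠ s ∧ t % q = s % q} = s / q + a / q := by
  induction a with
  | zero =>
    have := cnt1 q s 0
    simp only [add_zero, Nat.zero_div] at this ⊢
    rw [← this, range_add_one, filter_insert, if_neg (by simp)]
    exact congrArg card (filter_congr fun t ht => and_iff_right (mem_range.1 ht).ne)
  | succ a ih =>
    rw [← add_assoc, range_add_one, filter_insert, Nat.succ_div, ← add_assoc, ← ih]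
    have : (s + a + 1 ≠ s ∧ (s + a + 1) % q = s % q) ↔ q ∣ a + 1 := by
      rw [← mod_eq_add_iff q s, eq_comm, add_assoc]
      simp
    simp only [this]
    split_ifs
    · rw [card_insert_of_notMem (by simp)]
    · rfl

theorem cnt3 (q s a b : ℕ) : #{t ∈ range (s + a + 1) | t ≠ s ∧ t % q = (s + (a + b + 1)) % q} +
    (if q ∣ a + b + 1 then 1 else 0) + b / q = (s + (a + b + 1)) / q := by
  have := cnt1 q (s + a + 1) b
  rw [show s + a + 1 + b = s + (a + b + 1) by omega] at this
  rw [← this, card_filter, card_filter, ← add_sum_erase _ _ (show s ∈ range (s + a + 1) by simp),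
    ← add_sum_erase (range _) _ (show s ∈ range (s + a + 1) by simp)]
  simp only [mod_eq_add_iff, ne_eq, not_true_eq_false, false_and, if_false, zero_add]
  rw [add_comm (ite _ _ _)]
  congr 2
  exact sum_congr rfl fun t ht => by simp [(mem_erase.1 ht).1]

/-- The runner `i` carries beads exactly at the levels `≤ c`. -/
def Full (p i c : ℕ) (γ : Fin N → ℕ) : Prop := ∀ t, (∃ k, γ k = i + p * t) ↔ t ≤ c

theorem Full.card {p i c : ℕ} (hi : i < p) {γ : Fin N → ℕ} (hγ : Injective γ) (h : Full p i c γ)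
    {j : Fin N} {s : ℕ} (hj : γ j = i + p * s) (q u : ℕ) :
    #{k | k ≠ j ∧ γ k % (p * q) = (i + p * u) % (p * q)} =
      #{t ∈ range (c + 1) | t ≠ s ∧ t % q = u % q} := by
  have hp : 0 < p := by omega
  have key : ∀ t, (i + p * t) % (p * q) = (i + p * u) % (p * q) ↔ t % q = u % q := fun t =>
    ⟨fun e => Nat.ModEq.mul_left_cancel' hp.ne' (Nat.ModEq.add_left_cancel' i e),
      fun e => Nat.ModEq.add_left i (Nat.ModEq.mul_left' p e)⟩
  have h1 : ∀ k, γ k % (p * q) = (i + p * u) % (p * q) → γ k = i + p * (γ k / p) := by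
    intro k e
    have : γ k % p = i := by
      rw [← Nat.mod_mod_of_dvd _ (dvd_mul_right p q), e, Nat.mod_mod_of_dvd _ (dvd_mul_right p q),
        Nat.add_mul_mod_self_left, Nat.mod_eq_of_lt hi]
    rw [← this, Nat.mod_add_div]
  refine card_bij (fun k _ => γ k / p) (fun k hk => ?_) (fun k hk l hl e => ?_) fun t ht => ?_
  · obtain ⟨-, h2, h3⟩ := mem_filter.1 hk
    have h4 := h1 k h3
    refine mem_filter.2 ⟨mem_range.2 (Nat.lt_succ_of_le ((h _).1 ⟨k, h4⟩)), fun e => h2 (hγ ?_), ?_⟩
    · rw [h4, e, hj]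
    · rw [← key, ← h4, h3]
  · exact hγ (by rw [h1 k (mem_filter.1 hk).2.2, h1 l (mem_filter.1 hl).2.2, e])
  · obtain ⟨h2, h3, h4⟩ := mem_filter.1 ht
    obtain ⟨k, hk⟩ := (h t).2 (Nat.le_of_lt_succ (mem_range.1 h2))
    refine ⟨k, mem_filter.2 ⟨mem_univ _, ?_, by rw [hk, key, h4]⟩, ?_⟩
    · rintro rfl
      rw [hj] at hk
      exact h3 (Nat.eq_of_mul_eq_mul_left hp (Nat.add_left_cancel hk)).symm
    · rw [hk, Nat.add_mul_div_left _ _ hp, Nat.div_eq_of_lt hi, zero_add]

theorem Full.injective_update {p i c : ℕ} {γ : Fin N → ℕ} (hγ : Injective γ) (h : Full p i c γ)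
    (j : Fin N) {u : ℕ} (hu : c < u) : Injective (update γ j (i + p * u)) :=
  SymCh.injective_update hγ fun k _ e => hu.not_ge ((h u).1 ⟨k, e⟩)

theorem Full.wt_update {p i s a : ℕ} (hi : i < p) {γ : Fin N → ℕ} (hγ : Injective γ)
    (h : Full p i (s + a) γ) {j : Fin N} (hj : γ j = i + p * s) (b : ℕ) {q : ℕ} (hq : 0 < q) :
    wt (p * q) (update γ j (i + p * (s + (a + b + 1)))) =
      wt (p * q) γ + a / q + b / q + if q ∣ a + b + 1 then 1 else 0 := by
  have hp : 0 < p := by omega
  have h1 := SymCh.wt_update (Nat.mul_pos hp hq) hγ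
    (h.injective_update hγ j (u := s + (a + b + 1)) (by omega))
  have h2 : ∀ t, (i + p * t) / (p * q) = t / q := fun t => by
    rw [← Nat.div_div_eq_div_mul, Nat.add_mul_div_left _ _ hp, Nat.div_eq_of_lt hi, zero_add]
  rw [h.card hi hγ hj, hj, h.card hi hγ hj, h2, h2, cnt2, ← cnt3] at h1
  omega

theorem exists_eq_of_lt {κ : Fin N → ℕ} (h : Injective κ) {y : ℕ} (hy : y + wt 1 κ < N) :
    ∃ k, κ k = y := by
  by_contra hc
  push Not at hc
  have h1 : Injective fun k => if y < κ k then κ k - 1 else κ k := by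
    intro k l e
    have := hc k
    have := hc l
    apply h
    simp only at e
    split_ifs at e <;> omega
  have h2 := d0_le h1
  have h3 : ∑ k, (if y < κ k then κ k - 1 else κ k) + #{k | y < κ k} = ∑ k, κ k := by
    rw [card_filter, ← sum_add_distrib]
    refine sum_congr rfl fun k _ => ?_
    split_ifs <;> omega
  have h4 : #{k | ¬ y < κ k} ≤ y := by
    refine (card_le_card_of_injOn (t := range y) κ (fun k hk => ?_) h.injOn).trans_eq
      (card_range y)
    have := hc k
    simp only [coe_filter, mem_univ, true_and, Set.mem_ofPred_eq, coe_range, Set.mem_Iio] at hk ⊢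
    omega
  have h5 := card_filter_add_card_filter_not (s := univ) fun k => y < κ k
  rw [card_univ, Fintype.card_fin] at h5
  have h6 := sum_eq_d0_add h
  omega

theorem exists_full {p : ℕ} (hp : 0 < p) {κ : Fin N → ℕ} (h : Injective κ) (h0 : wt p κ = 0)
    {i L : ℕ} (hL : ∃ k, κ k = i + p * L) : ∃ c, L ≤ c ∧ Full p i c κ := by
  classical
  obtain ⟨K, h1, h2⟩ := exists_bound κ L
  refine ⟨Nat.findGreatest (fun t => ∃ k, κ k = i + p * t) K, Nat.le_findGreatest h1.le hL,
    fun t => ⟨fun ⟨k, hk⟩ => Nat.le_findGreatest ?_ ⟨k, hk⟩, fun ht => ?_⟩⟩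
  · have := h2 k
    have := Nat.le_mul_of_pos_left t hp
    omega
  · obtain ⟨k, hk⟩ := Nat.findGreatest_spec (P := fun t => ∃ k, κ k = i + p * t) h1.le hL
    obtain ⟨r, hr⟩ := Nat.exists_eq_add_of_le ht
    rw [hr, mul_add] at hk
    obtain ⟨l, hl⟩ := exists_pred_of_wt_zero hp h h0 (j := k) (r := r) (by omega)
    exact ⟨l, by omega⟩

theorem sum_Ico_pow_div {p : ℕ} (hp : p.Prime) {a K : ℕ} (h : a + 1 < K) :
    ∑ i ∈ Ico 1 K, a / p ^ (i - 1) = a + a.factorial.factorization p := by
  obtain ⟨K, rfl⟩ : ∃ L, K = L + 1 := ⟨K - 1, by omega⟩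
  rw [Nat.factorization_factorial hp (b := K) ((Nat.log_le_self _ _).trans_lt (by omega)),
    ← sum_Ico_add' _ 0 K 1, sum_eq_sum_Ico_succ_bot (by omega)]
  simp

theorem sum_Ico_pow_dvd {p : ℕ} (hp : p.Prime) {a K : ℕ} (ha : 0 < a) (h : a + 1 < K) :
    ∑ i ∈ Ico 1 K, (if p ^ (i - 1) ∣ a then 1 else 0) = 1 + a.factorization p := by
  obtain ⟨K, rfl⟩ : ∃ L, K = L + 1 := ⟨K - 1, by omega⟩
  rw [Nat.factorization_eq_card_pow_dvd_of_lt hp ha (b := K)
    (lt_trans (by omega) (Nat.lt_pow_self hp.one_lt)), card_filter,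
    ← sum_Ico_add' _ 0 K 1, sum_eq_sum_Ico_succ_bot (by omega)]
  simp

theorem Full.sum_wt_update {p i s a : ℕ} (hp : p.Prime) (hi : i < p) {γ : Fin N → ℕ}
    (hγ : Injective γ) (h : Full p i (s + a) γ) {j : Fin N} (hj : γ j = i + p * s) (b : ℕ) {K : ℕ}
    (hK : a + b + 2 < K) :
    ∑ k ∈ Ico 1 K, wt (p ^ k) (update γ j (i + p * (s + (a + b + 1)))) =
      ∑ k ∈ Ico 1 K, wt (p ^ k) γ + (a + b + 1) + a.factorial.factorization p +
        b.factorial.factorization p + (a + b + 1).factorization p := by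
  have h1 : ∀ k ∈ Ico 1 K, wt (p ^ k) (update γ j (i + p * (s + (a + b + 1)))) =
      wt (p ^ k) γ + a / p ^ (k - 1) + b / p ^ (k - 1) +
        if p ^ (k - 1) ∣ a + b + 1 then 1 else 0 := by
    intro k hk
    obtain ⟨k, rfl⟩ : ∃ l, k = l + 1 := ⟨k - 1, by have := (mem_Ico.1 hk).1; omega⟩
    rw [pow_succ', h.wt_update hi hγ hj b (pow_pos hp.pos k), Nat.add_sub_cancel]
  rw [sum_congr rfl h1, sum_add_distrib, sum_add_distrib, sum_add_distrib,
    sum_Ico_pow_div hp (by omega), sum_Ico_pow_div hp (by omega),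
    sum_Ico_pow_dvd hp (by omega) (by omega)]
  ring

theorem sum_wt_eq_zero {p : ℕ} (hp : p.Prime) {κ : Fin N → ℕ} (h : Injective κ) (h0 : wt p κ = 0)
    (K : ℕ) : ∑ k ∈ Ico 1 K, wt (p ^ k) κ = 0 := by
  have := sum_wt_le hp h K
  simpa [h0] using this

theorem factorization_factorial_succ (p a : ℕ) :
    (a + 1).factorial.factorization p = a.factorial.factorization p + (a + 1).factorization p := by
  rw [Nat.factorial_succ, Nat.factorization_mul a.succ_ne_zero a.factorial_ne_zero, add_comm]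
  rfl

theorem factorization_factorial_mul_add {p : ℕ} (hp : p.Prime) (u : ℕ) {r : ℕ} (hr : r < p) :
    (p * u + r).factorial.factorization p = u.factorial.factorization p + u := by
  have := Fact.mk hp
  rw [← Nat.factorization_factorial_mul hp, Nat.factorization_def _ hp, Nat.factorization_def _ hp,
    padicValNat_factorial_mul_add u hr]

theorem exists_one_carry {p : ℕ} (hp : p.Prime) (w : ℕ) : p ≤ w → w % p ≠ p - 1 →
    ∃ a b, a + 1 + (b + 1) = w ∧ w.factorial.factorization p =
      (a + 1).factorial.factorization p + (b + 1).factorial.factorization p + 1 := by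
  induction w using Nat.strong_induction_on with
  | _ w ih =>
  intro h1 h2
  have hp2 := hp.two_le
  have h3 := Nat.div_add_mod w p
  have h4 := Nat.mod_lt w hp.pos
  obtain ⟨u, hu⟩ : ∃ u, w / p = u + 1 := ⟨w / p - 1, by have := Nat.div_pos h1 hp.pos; omega⟩
  by_cases h5 : p ∣ u + 1
  · obtain ⟨a, b, h6, h7⟩ := ih (u + 1) (hu ▸ Nat.div_lt_self (by omega) hp.one_lt)
      (Nat.le_of_dvd u.succ_pos h5) (by rw [Nat.mod_eq_zero_of_dvd h5]; omega)
    have h8 : 1 ≤ p * (a + 1) := Nat.mul_pos hp.pos a.succ_pos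
    have h9 : 1 ≤ p * (b + 1) := Nat.mul_pos hp.pos b.succ_pos
    refine ⟨p * (a + 1) - 1, p * (b + 1) + w % p - 1, ?_, ?_⟩
    · rw [hu, ← h6, mul_add] at h3
      omega
    · rw [Nat.sub_add_cancel h8, Nat.sub_add_cancel (by omega),
        Nat.factorization_factorial_mul hp, factorization_factorial_mul_add hp _ h4]
      conv_lhs => rw [← h3, factorization_factorial_mul_add hp _ h4, hu, h7]
      omega
  · refine ⟨p - 2, p * u + w % p, ?_, ?_⟩
    · rw [hu, mul_add] at h3
      omega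
    · rw [Nat.factorization_factorial_eq_zero_of_lt (by omega : p - 2 + 1 < p), add_assoc (p * u),
        factorization_factorial_mul_add hp _ (by omega)]
      conv_lhs => rw [← h3, factorization_factorial_mul_add hp _ h4, hu,
        factorization_factorial_succ, Nat.factorization_eq_zero_of_not_dvd h5]
      omega

end Cfsg.Agent.SymCh
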